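import Mathlib
import Cfsg.Agent.H900.Gen.Defs
import Cfsg.Agent.S0749
import Cfsg.Agent.S0750
import Cfsg.Agent.S0751
import Cfsg.Agent.LieClassical.HermBasic

/-!
# S2187, classical rows: basic facts on `Frm`

`HF Φ` : the common properties of symplectic, hermitian and orthogonal forms.  Orthogonal complements, extension of
isometries of a nondegenerate subspace by the identity, Witt's theorem for vectors.
-/

set_option autoImplicit false

namespace Cfsg.Agent.H900.Gen

open Cfsg.Agent.H847.Bs QuadraticMap Cfsg.Agent.LieClassical.OrthCore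

variable {F V : Type*} [Field F] [AddCommGroup V] [Module F V]

/-- the common properties of symplectic, hermitian and orthogonal forms -/
structure HF (Φ : Frm F V) where
  /-- the automorphism of the field -/
  s : F ≃+* F
  hs : ∀ a, Φ.s a = s a
  inv : ∀ a, s (s a) = a
  /-- the sign -/
  ε : F
  eps : ε = 1 ∨ ε = -1
  symm : ∀ x y, Φ.B y x = ε * s (Φ.B x y)

section Bas

variable (Φ : Frm F V)

theorem B_zero_left (x : V) : Φ.B 0 x = 0 := by
  have h := Φ.smul_left 0 0 x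
  rwa [zero_smul, zero_mul] at h

theorem B_neg_left (x y : V) : Φ.B (-x) y = - Φ.B x y := by
  have h := Φ.smul_left (-1) x y
  rwa [neg_one_smul, neg_one_mul] at h

theorem B_sub_left (x y z : V) : Φ.B (x - y) z = Φ.B x z - Φ.B y z := by
  rw [sub_eq_add_neg, Φ.add_left, B_neg_left, ← sub_eq_add_neg]

theorem B_zero_right (x : V) : Φ.B x 0 = 0 := by
  have h := Φ.add_right x 0 0
  rw [add_zero] at h
  linear_combination -h

theorem B_neg_right (x y : V) : Φ.B x (-y) = - Φ.B x y := by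
  have h := Φ.add_right x y (-y)
  rw [add_neg_cancel, B_zero_right] at h
  linear_combination -h

theorem B_sub_right (x y z : V) : Φ.B x (y - z) = Φ.B x y - Φ.B x z := by
  rw [sub_eq_add_neg, Φ.add_right, B_neg_right, ← sub_eq_add_neg]

theorem B_comm_zero {x y : V} : Φ.B x y = 0 ↔ Φ.B y x = 0 := ⟨Φ.refl x y, Φ.refl y x⟩

end Bas

namespace HF

variable {Φ : Frm F V} (H : HF Φ)

theorem eps_mul : H.ε * H.ε = 1 := by
  rcases H.eps with h | h <;> rw [h] <;> ring

/-- restriction to a subspace -/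
def on (W : Submodule F V) : HF (Φ.on W) where
  s := H.s
  hs := H.hs
  inv := H.inv
  ε := H.ε
  eps := H.eps
  symm x y := H.symm x y

end HF

/-- the three kinds of spaces have these properties -/
theorem Cl.hf [Finite F] {Φ : Frm F V} (h : Cl Φ) : Nonempty (HF Φ) := by
  rcases h with h | ⟨r, h⟩ | ⟨Q, rfl, h⟩
  · refine ⟨⟨RingEquiv.refl F, h.s, fun _ => rfl, -1, Or.inr rfl, fun x y => ?_⟩⟩
    have h1 := h.alt (x + y)
    rw [Φ.add_left, Φ.add_right, Φ.add_right, h.alt x, h.alt y] at h1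
    rw [RingEquiv.refl_apply]
    linear_combination h1
  · have := Fintype.ofFinite F
    have hF : Fintype.card F = r ^ 2 := by rw [← Nat.card_eq_fintype_card, h.card]
    refine ⟨⟨Cfsg.Agent.LieClassical.HermBasic.conj hF, h.s, fun a => ?_, 1, Or.inl rfl, fun x y => ?_⟩⟩
    · exact Cfsg.Agent.LieClassical.HermBasic.pow_q_pow_q hF a
    · rw [one_mul]
      exact h.symm x y
  · refine ⟨⟨RingEquiv.refl F, fun _ => rfl, fun _ => rfl, 1, Or.inl rfl, fun x y => ?_⟩⟩
    rw [one_mul]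
    exact polar_comm _ _ _

theorem Cl.nd {Φ : Frm F V} (h : Cl Φ) : Φ.Nd := by
  rcases h with h | ⟨r, h⟩ | ⟨Q, rfl, h⟩
  · exact h.nd
  · exact h.nd
  · exact h

theorem Cl.on {Φ : Frm F V} (h : Cl Φ) {W : Submodule F V} (hW : Φ.NdOn W) : Cl (Φ.on W) := by
  have hnd : (Φ.on W).Nd := fun x hx => Subtype.ext (hW x x.2 fun y hy => hx ⟨y, hy⟩)
  rcases h with h | ⟨r, h⟩ | ⟨Q, rfl, h⟩
  · exact Or.inl ⟨hnd, h.s, fun x => h.q x, fun x => h.alt x⟩
  · exact Or.inr (Or.inl ⟨r, hnd, h.card, h.s, fun x => h.q x, fun x y => h.symm x y⟩)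
  · refine Or.inr (Or.inr ⟨Q.comp W.subtype, rfl, fun x hx => ?_⟩)
    refine Subtype.ext (hW x x.2 fun y hy => ?_)
    exact hx ⟨y, hy⟩

/-- the orthogonal complement -/
def perp (Φ : Frm F V) (W : Submodule F V) : Submodule F V where
  carrier := {x | Prp Φ W x}
  add_mem' := fun {x y} hx hy w hw => by rw [Φ.add_left, hx w hw, hy w hw, add_zero]
  zero_mem' := fun w _ => B_zero_left Φ w
  smul_mem' := fun a x hx w hw => by rw [Φ.smul_left, hx w hw, mul_zero]

theorem mem_perp {Φ : Frm F V} {W : Submodule F V} {x : V} : x ∈ perp Φ W ↔ Prp Φ W x := Iff.rfl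

/-- linear functional defined by a vector -/
def fun1 (Φ : Frm F V) (W : Submodule F V) (x : V) : W →ₗ[F] F where
  toFun w := Φ.B w x
  map_add' a b := Φ.add_left a b x
  map_smul' a b := by
    rw [RingHom.id_apply, smul_eq_mul]
    exact Φ.smul_left a b x

theorem isCompl_perp [Finite F] [FiniteDimensional F V] (Φ : Frm F V) {W : Submodule F V} (hW : Φ.NdOn W) :
    IsCompl W (perp Φ W) := by
  have hfin : Finite W := Module.finite_of_finite F
  have hfin2 : Finite (W →ₗ[F] F) := Module.finite_of_finite F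
  have hinj : Function.Injective (fun w : W => fun1 Φ W w) := by
    intro w w' h
    have h1 : ∀ y ∈ W, Φ.B (w - w' : V) y = 0 := by
      intro y hy
      have h2 := LinearMap.congr_fun h ⟨y, hy⟩
      have h3 : Φ.B y w = Φ.B y w' := h2
      apply (B_comm_zero Φ).2
      rw [B_sub_right, h3, sub_self]
    have h4 := hW _ (W.sub_mem w.2 w'.2) h1
    exact Subtype.ext (sub_eq_zero.1 h4)
  have hcard : Nat.card (W →ₗ[F] F) = Nat.card W := by
    have := Fintype.ofFinite F
    rw [Module.natCard_eq_pow_finrank (K := F), Module.natCard_eq_pow_finrank (K := F) (V := W),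
      Subspace.dual_finrank_eq]
  have hbij : Function.Bijective (fun w : W => fun1 Φ W w) :=
    (Nat.bijective_iff_injective_and_card _).2 ⟨hinj, hcard.symm⟩
  rw [isCompl_iff, disjoint_iff, codisjoint_iff]
  constructor
  · rw [eq_bot_iff]
    rintro x ⟨h1, h2⟩
    exact hW x h1 h2
  · rw [eq_top_iff]
    intro x _
    obtain ⟨w, hw⟩ := hbij.2 (fun1 Φ W x)
    refine Submodule.mem_sup.2 ⟨w, w.2, x - w, ?_, by abel⟩
    intro y hy
    have h1 : Φ.B y w = Φ.B y x := LinearMap.congr_fun hw ⟨y, hy⟩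
    apply (B_comm_zero Φ).2
    rw [B_sub_right, h1, sub_self]

section Ext

variable [Finite F] [FiniteDimensional F V] {Φ : Frm F V} {W : Submodule F V} (hW : Φ.NdOn W)

/-- extension of an automorphism of `W` by the identity on the orthogonal complement -/
noncomputable def ext (g : W ≃ₗ[F] W) : V ≃ₗ[F] V :=
  glue (isCompl_perp Φ hW) g (LinearEquiv.refl F _)

theorem ext_apply_mem (g : W ≃ₗ[F] W) (w : W) : ext hW g w = g w := by
  unfold ext glue
  rw [LinearEquiv.trans_apply, LinearEquiv.trans_apply, Submodule.prodEquivOfIsCompl_symm_apply_left]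
  simp [Submodule.coe_prodEquivOfIsCompl']

theorem ext_apply_perp (g : W ≃ₗ[F] W) {x : V} (hx : Prp Φ W x) : ext hW g x = x := by
  unfold ext glue
  have h1 := Submodule.prodEquivOfIsCompl_symm_apply_right _ _ (isCompl_perp Φ hW) (⟨x, hx⟩ : perp Φ W)
  change ((Submodule.prodEquivOfIsCompl W (perp Φ W) (isCompl_perp Φ hW)).symm x) = _ at h1
  rw [LinearEquiv.trans_apply, LinearEquiv.trans_apply, h1]
  simp [Submodule.coe_prodEquivOfIsCompl']

theorem ext_loc (g : W ≃ₗ[F] W) : Loc Φ W (ext hW g) := fun _ hx => ext_apply_perp hW g hx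

include hW in
/-- decomposition of a vector -/
theorem exists_dec (x : V) : ∃ w ∈ W, ∃ y, Prp Φ W y ∧ x = w + y := by
  have h : x ∈ W ⊔ perp Φ W := by
    rw [(isCompl_perp Φ hW).sup_eq_top]
    trivial
  obtain ⟨w, hw, y, hy, rfl⟩ := Submodule.mem_sup.1 h
  exact ⟨w, hw, y, hy, rfl⟩

theorem ext_mem_iso {g : W ≃ₗ[F] W} (hg : g ∈ (Φ.on W).Iso) : ext hW g ∈ Φ.Iso := by
  constructor
  · intro x y
    obtain ⟨w, hw, x', hx', rfl⟩ := exists_dec hW x
    obtain ⟨z, hz, y', hy', rfl⟩ := exists_dec hW y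
    have e1 := ext_apply_mem hW g ⟨w, hw⟩
    have e2 := ext_apply_mem hW g ⟨z, hz⟩
    dsimp only at e1 e2
    rw [map_add, map_add, e1, e2, ext_apply_perp hW g hx', ext_apply_perp hW g hy', Φ.add_left, Φ.add_left,
      Φ.add_right, Φ.add_right, Φ.add_right, Φ.add_right, hx' _ (g ⟨z, hz⟩).2, hx' _ hz,
      (B_comm_zero Φ).1 (hy' _ (g ⟨w, hw⟩).2), (B_comm_zero Φ).1 (hy' _ hw)]
    have := hg.1 ⟨w, hw⟩ ⟨z, hz⟩
    change Φ.B (g ⟨w, hw⟩) (g ⟨z, hz⟩) = Φ.B w z at this
    rw [this]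
  · intro x
    obtain ⟨w, hw, x', hx', rfl⟩ := exists_dec hW x
    have e1 := ext_apply_mem hW g ⟨w, hw⟩
    dsimp only at e1
    rw [map_add, e1, ext_apply_perp hW g hx', Φ.q_add _ _ ((B_comm_zero Φ).1 (hx' _ (g ⟨w, hw⟩).2)),
      Φ.q_add _ _ ((B_comm_zero Φ).1 (hx' _ hw))]
    have := hg.2 ⟨w, hw⟩
    change Φ.q (g ⟨w, hw⟩) = Φ.q w at this
    rw [this]

include hW in
/-- an isometry living on `W` preserves `W` -/
theorem Loc.mem (hN : Φ.Nd) {g : V ≃ₗ[F] V} (hg : g ∈ Φ.Iso) (h : Loc Φ W g) {w : V} (hw : w ∈ W) : g w ∈ W := by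
  obtain ⟨z, hz, y, hy, e⟩ := exists_dec hW (g w)
  have h1 : ∀ x, Prp Φ W x → Φ.B y x = 0 := by
    intro x hx
    have h2 : Φ.B (g w) x = 0 := by
      have h3 := hg.1 w x
      rw [h x hx] at h3
      rw [h3]
      exact (B_comm_zero Φ).1 (hx w hw)
    rw [e, Φ.add_left, (B_comm_zero Φ).1 (hx z hz), zero_add] at h2
    exact h2
  have h3 : ∀ v, Φ.B y v = 0 := by
    intro v
    obtain ⟨a, ha, b, hb, rfl⟩ := exists_dec hW v
    rw [Φ.add_right, hy a ha, h1 b hb, add_zero]
  rw [e, hN y h3, add_zero]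
  exact hz

end Ext

theorem iso_ne_zero (g : V ≃ₗ[F] V) {x : V} (hx : x ≠ 0) : g x ≠ 0 := by
  rwa [Ne, LinearEquiv.map_eq_zero_iff]

/-- Witt's theorem for vectors. -/
theorem Cl.witt [Finite F] [FiniteDimensional F V] {Φ : Frm F V} (h : Cl Φ) {x y : V} (hx : x ≠ 0) (hy : y ≠ 0)
    (hB : Φ.B x x = Φ.B y y) (hq : Φ.q x = Φ.q y) : ∃ g ∈ Φ.Iso, g x = y := by
  let φ : (F ∙ x) ≃ₗ[F] (F ∙ y) := (LinearEquiv.toSpanNonzeroSingleton F V x hx).symm ≪≫ₗ
    (LinearEquiv.toSpanNonzeroSingleton F V y hy)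
  have hφ : ∀ u : (F ∙ x), ∃ a : F, (u : V) = a • x ∧ (φ u : V) = a • y := by
    intro u
    obtain ⟨a, rfl⟩ := (LinearEquiv.toSpanNonzeroSingleton F V x hx).surjective u
    refine ⟨a, rfl, ?_⟩
    show (((LinearEquiv.toSpanNonzeroSingleton F V y hy) ((LinearEquiv.toSpanNonzeroSingleton F V x hx).symm
      ((LinearEquiv.toSpanNonzeroSingleton F V x hx) a)) : (F ∙ y)) : V) = a • y
    rw [LinearEquiv.symm_apply_apply]
    rfl
  have hxm : x ∈ (F ∙ x) := Submodule.mem_span_singleton_self x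
  have hfin : ∀ g : V ≃ₗ[F] V, (∀ u : (F ∙ x), g (u : V) = (φ u : V)) → g x = y := by
    intro g hg
    have h1 := hg ⟨x, hxm⟩
    obtain ⟨a, ha, hb⟩ := hφ ⟨x, hxm⟩
    rw [hb] at h1
    have h2 : a = 1 := by
      have h3 : (a - 1) • x = 0 := by
        rw [sub_smul, one_smul, ← ha, sub_self]
      rcases smul_eq_zero.1 h3 with h4 | h4
      · exact sub_eq_zero.1 h4
      · exact absurd h4 hx
    rwa [h2, one_smul] at h1
  rcases h with h | ⟨r, h⟩ | ⟨Q, rfl, h⟩
  · have hs := h.s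
    let B : LinearMap.BilinForm F V := LinearMap.mk₂ F Φ.B Φ.add_left (fun a x y => Φ.smul_left a x y) Φ.add_right
      (fun a x y => by rw [Φ.smul_right, hs, smul_eq_mul])
    have hBa : ∀ u v, B u v = Φ.B u v := fun _ _ => rfl
    have hnd : B.Nondegenerate := ⟨fun u hu => h.nd u hu, fun u hu => h.nd u fun v => (B_comm_zero Φ).2 (hu v)⟩
    obtain ⟨g, hg, hgx⟩ := S0749.result B hnd h.alt (F ∙ x) (F ∙ y) φ (by
      intro u v
      obtain ⟨a, ha, ha'⟩ := hφ u
      obtain ⟨b, hb, hb'⟩ := hφ v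
      rw [ha, ha', hb, hb', hBa, hBa, Φ.smul_left, Φ.smul_left, Φ.smul_right, Φ.smul_right, hB])
    exact ⟨g, ⟨hg, fun v => by rw [h.q, h.q]⟩, hfin g hgx⟩
  · obtain ⟨H⟩ := Cl.hf (Or.inr (Or.inl ⟨r, h⟩) : Cl Φ)
    have := Fintype.ofFinite F
    have hF : Fintype.card F = r ^ 2 := by rw [← Nat.card_eq_fintype_card, h.card]
    have hs := h.s
    let σ : F →+* F := (Cfsg.Agent.LieClassical.HermBasic.conj hF : F →+* F)
    have hσ : ∀ a, σ a = a ^ r := fun a => rfl
    have hr : 2 ≤ r := Cfsg.Agent.LieClassical.HermBasic.two_le hF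
    have hσ1 : σ ≠ RingHom.id F := by
      intro h1
      obtain ⟨g, hg⟩ := IsCyclic.exists_generator (α := Fˣ)
      have h2 : orderOf g = r ^ 2 - 1 := by
        rw [orderOf_eq_card_of_forall_mem_zpowers hg, Nat.card_units, h.card]
      have h3 : (g : F) ^ r = g := by
        rw [← hσ, h1]
        rfl
      have h4 : g ^ (r - 1) = 1 := by
        have h5 : g ^ r = g := Units.ext (by rw [Units.val_pow_eq_pow_val]; exact h3)
        obtain ⟨k, rfl⟩ := Nat.exists_eq_add_of_le' (show 1 ≤ r by omega)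
        rw [pow_succ] at h5
        rw [Nat.add_sub_cancel]
        exact mul_eq_right.1 h5
      have h6 := orderOf_dvd_of_pow_eq_one h4
      rw [h2] at h6
      have h7 := Nat.le_of_dvd (by omega) h6
      have h8 : r * 2 ≤ r ^ 2 := by
        rw [_root_.sq]
        exact Nat.mul_le_mul_left r hr
      omega
    let B : V →ₛₗ[σ] V →ₗ[F] F :=
      { toFun := fun u =>
          { toFun := fun v => Φ.B v u
            map_add' := fun v w => Φ.add_left v w u
            map_smul' := fun a v => Φ.smul_left a v u }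
        map_add' := fun u v => by
          ext w
          exact Φ.add_right w u v
        map_smul' := fun a u => by
          ext w
          show Φ.B w (a • u) = a ^ r * Φ.B w u
          rw [Φ.smul_right, hs] }
    have hBa : ∀ u v, B u v = Φ.B v u := fun _ _ => rfl
    have hnd : B.Nondegenerate := ⟨fun u hu => h.nd u fun v => (B_comm_zero Φ).2 (hu v), fun u hu => h.nd u hu⟩
    obtain ⟨g, hg, hgx⟩ := S0751.result σ hσ1 (fun a => Cfsg.Agent.LieClassical.HermBasic.pow_q_pow_q hF a) B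
      (by
        constructor
        intro u v
        show σ (Φ.B v u) = Φ.B u v
        rw [hσ, ← h.symm]) hnd (F ∙ x) (F ∙ y) φ (by
      intro u v
      obtain ⟨a, ha, ha'⟩ := hφ u
      obtain ⟨b, hb, hb'⟩ := hφ v
      rw [ha, ha', hb, hb', hBa, hBa, Φ.smul_left, Φ.smul_left, Φ.smul_right, Φ.smul_right, hB])
    exact ⟨g, ⟨fun u v => hg v u, fun v => by rw [h.q, h.q]⟩, hfin g hgx⟩
  · have hnd : (polarBilin Q).Nondegenerate :=
      ⟨fun u hu => h u hu, fun u hu => h u fun v => (B_comm_zero (frmQ Q)).2 (hu v)⟩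
    obtain ⟨g, hg, hgx⟩ := S0750.result Q hnd (F ∙ x) (F ∙ y) φ (by
      intro u
      obtain ⟨a, ha, ha'⟩ := hφ u
      have hq' : Q x = Q y := hq
      rw [ha, ha', QuadraticMap.map_smul, QuadraticMap.map_smul, hq'])
    exact ⟨g, ⟨fun u v => polar_map (Q := Q) hg u v, hg⟩, hfin g hgx⟩

/-- Witt's theorem for vectors of a nondegenerate subspace. -/
theorem Cl.witt_on [Finite F] [FiniteDimensional F V] {Φ : Frm F V} (h : Cl Φ) {W : Submodule F V} (hW : Φ.NdOn W)
    {x y : V} (hxW : x ∈ W) (hyW : y ∈ W) (hx : x ≠ 0) (hy : y ≠ 0)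
    (hB : Φ.B x x = Φ.B y y) (hq : Φ.q x = Φ.q y) : ∃ g ∈ Φ.Iso, Loc Φ W g ∧ g x = y := by
  obtain ⟨g, hg, e⟩ := (h.on hW).witt (x := ⟨x, hxW⟩) (y := ⟨y, hyW⟩) (fun e => hx (congrArg Subtype.val e))
    (fun e => hy (congrArg Subtype.val e)) hB hq
  refine ⟨ext hW g, ext_mem_iso hW hg, ext_loc hW g, ?_⟩
  have := ext_apply_mem hW g ⟨x, hxW⟩
  rw [e] at this
  exact this

end Cfsg.Agent.H900.Gen
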