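import Mathlib

/-!
# S2187, classical rows: `ε`-hermitian forms over a field with an automorphism of order two

`LF.rf w ζ` : the pseudo-reflection with centre `w` and multiplier `ζ`.
`LF.link` : a group which contains the pseudo-reflections with centre `x₀` and all commutators of isometries moves every
vector `v` with `h v v ≠ 0`, `h v x₀ ≠ 0` into the line of `x₀`.
-/

set_option autoImplicit false

namespace Cfsg.Agent.H900.Gen

/-- An `ε`-hermitian form over a field `L` with an automorphism `σ` of order two. -/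
structure LF (L W : Type*) [Field L] [AddCommGroup W] [Module L W] where
  /-- the form -/
  h : W → W → L
  /-- the involution -/
  σ : L ≃+* L
  /-- the sign -/
  ε : L
  add_left : ∀ x y z, h (x + y) z = h x z + h y z
  smul_left : ∀ (a : L) (x y), h (a • x) y = a * h x y
  symm : ∀ x y, h y x = ε * σ (h x y)
  inv : ∀ a, σ (σ a) = a
  nt : ∃ a, σ a ≠ a
  eps : ε = 1 ∨ ε = -1

namespace LF

variable {L W : Type*} [Field L] [AddCommGroup W] [Module L W] (Φ : LF L W)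

theorem eps_mul : Φ.ε * Φ.ε = 1 := by
  rcases Φ.eps with h | h <;> rw [h] <;> ring

theorem sig_eps : Φ.σ Φ.ε = Φ.ε := by
  rcases Φ.eps with h | h <;> rw [h] <;> simp

theorem eps_ne : Φ.ε ≠ 0 := by
  rcases Φ.eps with h | h <;> rw [h] <;> simp

theorem add_right (x y z : W) : Φ.h x (y + z) = Φ.h x y + Φ.h x z := by
  rw [Φ.symm (y + z) x, Φ.add_left, map_add, mul_add, ← Φ.symm, ← Φ.symm]

theorem smul_right (a : L) (x y : W) : Φ.h x (a • y) = Φ.σ a * Φ.h x y := by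
  rw [Φ.symm (a • y) x, Φ.smul_left, map_mul, Φ.symm y x]
  ring

theorem zero_left (y : W) : Φ.h 0 y = 0 := by
  have := Φ.smul_left 0 0 y
  rwa [zero_smul, zero_mul] at this

theorem neg_left (x y : W) : Φ.h (-x) y = -Φ.h x y := by
  have := Φ.smul_left (-1) x y
  rwa [neg_one_smul, neg_one_mul] at this

theorem neg_right (x y : W) : Φ.h x (-y) = -Φ.h x y := by
  have := Φ.smul_right (-1) x y
  rw [neg_one_smul] at this
  rw [this, map_neg, map_one, neg_one_mul]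

theorem sub_left (x y z : W) : Φ.h (x - y) z = Φ.h x z - Φ.h y z := by
  rw [sub_eq_add_neg, Φ.add_left, Φ.neg_left, ← sub_eq_add_neg]

theorem sub_right (x y z : W) : Φ.h x (y - z) = Φ.h x y - Φ.h x z := by
  rw [sub_eq_add_neg, Φ.add_right, Φ.neg_right, ← sub_eq_add_neg]

theorem sig_self (x : W) : Φ.σ (Φ.h x x) = Φ.ε * Φ.h x x := by
  have h1 := Φ.symm x x
  calc Φ.σ (Φ.h x x) = Φ.ε * Φ.ε * Φ.σ (Φ.h x x) := by rw [Φ.eps_mul, one_mul]
    _ = Φ.ε * (Φ.ε * Φ.σ (Φ.h x x)) := by ring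
    _ = Φ.ε * Φ.h x x := by rw [← h1]

/-- the isometries -/
def Isom (g : W ≃ₗ[L] W) : Prop := ∀ x y, Φ.h (g x) (g y) = Φ.h x y

/-- The pseudo-reflection as a linear map. -/
def rfLin (w : W) (z : L) : W →ₗ[L] W where
  toFun v := v + ((z - 1) * (Φ.h v w * (Φ.h w w)⁻¹)) • w
  map_add' x y := by
    rw [Φ.add_left]
    module
  map_smul' a x := by
    rw [Φ.smul_left, RingHom.id_apply]
    module

theorem rfLin_apply (w : W) (z : L) (v : W) :
    Φ.rfLin w z v = v + ((z - 1) * (Φ.h v w * (Φ.h w w)⁻¹)) • w := rfl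

theorem rfLin_rfLin {w : W} (hw : Φ.h w w ≠ 0) (z z' : L) (v : W) :
    Φ.rfLin w z' (Φ.rfLin w z v) = Φ.rfLin w (z' * z) v := by
  rw [rfLin_apply, rfLin_apply, rfLin_apply, Φ.add_left, Φ.smul_left, add_assoc, ← add_smul]
  congr 2
  field_simp
  ring

/-- The pseudo-reflection with centre `w` and multiplier `z`. -/
def rf (w : W) (hw : Φ.h w w ≠ 0) (z : L) (hz : z ≠ 0) : W ≃ₗ[L] W :=
  LinearEquiv.ofLinearMap (Φ.rfLin w z) (Φ.rfLin w z⁻¹)
    (by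
      ext v
      rw [LinearMap.comp_apply, Φ.rfLin_rfLin hw, mul_inv_cancel₀ hz, rfLin_apply]
      simp)
    (by
      ext v
      rw [LinearMap.comp_apply, Φ.rfLin_rfLin hw, inv_mul_cancel₀ hz, rfLin_apply]
      simp)

theorem rf_apply (w : W) (hw : Φ.h w w ≠ 0) (z : L) (hz : z ≠ 0) (v : W) :
    Φ.rf w hw z hz v = v + ((z - 1) * (Φ.h v w * (Φ.h w w)⁻¹)) • w := rfl

theorem ne_zero_of_norm {z : L} (h : z * Φ.σ z = 1) : z ≠ 0 := by
  rintro rfl
  rw [zero_mul] at h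
  exact zero_ne_one h

theorem rf_isom {w : W} (hw : Φ.h w w ≠ 0) {z : L} (h : z * Φ.σ z = 1) :
    Φ.Isom (Φ.rf w hw z (Φ.ne_zero_of_norm h)) := by
  intro v u
  have h1 := Φ.sig_self w
  have h2 := Φ.symm u w
  have he := Φ.eps_mul
  have he0 := Φ.eps_ne
  rw [rf_apply, rf_apply, Φ.add_left, Φ.add_right, Φ.add_right, Φ.smul_left, Φ.smul_left, Φ.smul_right,
    Φ.smul_right, map_mul, map_mul, map_sub, map_one, map_inv₀, h1, h2]
  have h3 : (Φ.ε * Φ.h w w)⁻¹ = Φ.ε * (Φ.h w w)⁻¹ := by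
    rw [mul_inv]
    congr 1
    exact inv_eq_of_mul_eq_one_left he
  rw [h3]
  set A := Φ.h v w
  set B := Φ.σ (Φ.h u w)
  set n := Φ.h w w
  set s := Φ.σ z
  have h4 : n * n⁻¹ = 1 := mul_inv_cancel₀ hw
  have key : (s - 1) * (B * (Φ.ε * n⁻¹)) * A + ((z - 1) * (A * n⁻¹) * (Φ.ε * B) +
      (z - 1) * (A * n⁻¹) * ((s - 1) * (B * (Φ.ε * n⁻¹)) * n)) =
      Φ.ε * A * B * n⁻¹ * (z * s - 1) + (z - 1) * (s - 1) * A * B * Φ.ε * n⁻¹ * (n * n⁻¹ - 1) := by ring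
  rw [h, h4, sub_self, mul_zero, mul_zero, add_zero] at key
  linear_combination key

/-- Conjugation of a pseudo-reflection. -/
theorem rf_conj {g : W ≃ₗ[L] W} (hg : Φ.Isom g) {w : W} (hw : Φ.h w w ≠ 0) (z : L) (hz : z ≠ 0)
    {w' : W} (hw' : Φ.h w' w' ≠ 0) (e : g w = w') : g * Φ.rf w hw z hz * g⁻¹ = Φ.rf w' hw' z hz := by
  subst e
  ext v
  obtain ⟨v, rfl⟩ := g.surjective v
  have h1 : (g * Φ.rf w hw z hz * g⁻¹) (g v) = g (Φ.rf w hw z hz v) := by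
    show g (Φ.rf w hw z hz (g.symm (g v))) = _
    rw [LinearEquiv.symm_apply_apply]
  rw [h1, rf_apply, rf_apply, hg, hg, map_add, map_smul]

theorem rf_smul {w : W} (hw : Φ.h w w ≠ 0) (z : L) (hz : z ≠ 0) {a : L} (ha : a ≠ 0)
    (hw' : Φ.h (a • w) (a • w) ≠ 0) : Φ.rf (a • w) hw' z hz = Φ.rf w hw z hz := by
  ext v
  rw [rf_apply, rf_apply, Φ.smul_right, Φ.smul_left, Φ.smul_right, smul_smul]
  congr 2
  have h1 : Φ.σ a ≠ 0 := by
    rwa [Ne, map_eq_zero]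
  field_simp

/-- The pseudo-reflection which moves `v` to `x`. -/
theorem exists_rf {v x : W} (h : Φ.h v v = Φ.h x x) (hw : Φ.h (v - x) (v - x) ≠ 0) :
    ∃ (z : L) (hz : z * Φ.σ z = 1), Φ.rf (v - x) hw z (Φ.ne_zero_of_norm hz) v = x := by
  have he := Φ.eps_mul
  have h0 : Φ.h x v = Φ.ε * Φ.σ (Φ.h v x) := Φ.symm v x
  have h1 : Φ.h (v - x) (v - x) = Φ.h v (v - x) + Φ.ε * Φ.σ (Φ.h v (v - x)) := by
    rw [Φ.sub_left, Φ.sub_right, Φ.sub_right, map_sub, Φ.sig_self, h0, ← h]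
    linear_combination (-Φ.h v v) * he
  have h2 : Φ.h v (v - x) ≠ 0 := by
    intro h2
    rw [h2, map_zero, mul_zero, add_zero] at h1
    exact hw h1
  have h3 : Φ.σ (Φ.h v (v - x)) ≠ 0 := by
    rwa [Ne, map_eq_zero]
  have hz : (-(Φ.ε * Φ.σ (Φ.h v (v - x))) / Φ.h v (v - x)) *
      Φ.σ (-(Φ.ε * Φ.σ (Φ.h v (v - x))) / Φ.h v (v - x)) = 1 := by
    rw [map_div₀, map_neg, map_mul, Φ.inv, Φ.sig_eps]
    field_simp
    linear_combination he
  refine ⟨_, hz, ?_⟩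
  rw [rf_apply]
  have h4 : (-(Φ.ε * Φ.σ (Φ.h v (v - x))) / Φ.h v (v - x) - 1) * (Φ.h v (v - x) * (Φ.h (v - x) (v - x))⁻¹) = -1 := by
    rw [h1] at hw ⊢
    field_simp
    ring
  rw [h4, neg_one_smul]
  abel

/-! ### Norms -/

/-- Hilbert's theorem 90 for the involution. -/
theorem hilbert {a : L} (h : a * Φ.σ a = 1) : ∃ y : L, y ≠ 0 ∧ a * Φ.σ y = y := by
  by_cases h1 : a = -1
  · obtain ⟨y, hy⟩ := Φ.nt
    refine ⟨y - Φ.σ y, sub_ne_zero.2 (Ne.symm hy), ?_⟩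
    rw [map_sub, Φ.inv, h1]
    ring
  · refine ⟨1 + a, fun h2 => h1 ?_, ?_⟩
    · linear_combination h2
    · rw [map_add, map_one]
      linear_combination h

/-- The norm is surjective onto the fixed field of the involution. -/
theorem exists_norm [Finite L] {a : L} (h : Φ.σ a = a) : ∃ x : L, x * Φ.σ x = a := by
  by_cases ha : a = 0
  · exact ⟨0, by rw [ha, zero_mul]⟩
  let τ : Lˣ →* Lˣ := Units.map (Φ.σ : L →* L)
  let N : Lˣ →* Lˣ := MonoidHom.id Lˣ * τ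
  let D : Lˣ →* Lˣ := MonoidHom.id Lˣ / τ
  have hN : ∀ x : Lˣ, ((N x : Lˣ) : L) = x * Φ.σ x := fun x => rfl
  have hD : ∀ x : Lˣ, D x = x / τ x := fun x => rfl
  have hτ : ∀ x : Lˣ, ((τ x : Lˣ) : L) = Φ.σ x := fun x => rfl
  have h1 : N.ker = D.range := by
    ext x
    rw [MonoidHom.mem_ker, MonoidHom.mem_range]
    constructor
    · intro hx
      have hx' : (x : L) * Φ.σ x = 1 := by rw [← hN, hx, Units.val_one]
      obtain ⟨y, hy, h2⟩ := Φ.hilbert hx'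
      refine ⟨Units.mk0 y hy, ?_⟩
      rw [hD, div_eq_iff_eq_mul]
      apply Units.ext
      rw [Units.val_mul, hτ]
      exact h2.symm
    · rintro ⟨y, rfl⟩
      apply Units.ext
      rw [hN, hD, Units.val_div_eq_div_val, hτ, map_div₀, Φ.inv, Units.val_one]
      have h3 : (y : L) ≠ 0 := y.ne_zero
      have h4 : Φ.σ (y : L) ≠ 0 := by
        rwa [Ne, map_eq_zero]
      field_simp
  have h2 : N.range ≤ D.ker := by
    rintro _ ⟨x, rfl⟩
    rw [MonoidHom.mem_ker, hD, div_eq_one]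
    apply Units.ext
    rw [hτ, hN, map_mul, Φ.inv, mul_comm]
  have h3 : Nat.card N.range = Nat.card D.ker := by
    have e1 := Subgroup.card_mul_index N.ker
    rw [Subgroup.index_ker, h1] at e1
    have e2 := Subgroup.card_mul_index D.ker
    rw [Subgroup.index_ker] at e2
    have e3 : 0 < Nat.card D.range := Nat.card_pos
    have e4 : Nat.card D.range * Nat.card N.range = Nat.card D.range * Nat.card D.ker := by
      rw [e1, ← e2, mul_comm]
    exact Nat.eq_of_mul_eq_mul_left e3 e4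
  have h4 : N.range = D.ker := Subgroup.eq_of_le_of_card_ge h2 h3.ge
  have h5 : Units.mk0 a ha ∈ D.ker := by
    rw [MonoidHom.mem_ker, hD, div_eq_one]
    apply Units.ext
    rw [hτ]
    exact h.symm
  rw [← h4] at h5
  obtain ⟨x, hx⟩ := h5
  exact ⟨x, by rw [← hN, hx]; rfl⟩

/-- A unit multiple of `x` at nonzero distance from `v`. -/
theorem exists_unit {v x : W} (h : Φ.h v v = Φ.h x x) (h0 : Φ.h v v ≠ 0) (hm : Φ.h v x ≠ 0) :
    ∃ u : L, u * Φ.σ u = 1 ∧ Φ.h (v - u • x) (v - u • x) ≠ 0 := by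
  by_contra hcon
  push Not at hcon
  have key : ∀ u : L, u * Φ.σ u = 1 →
      2 * Φ.h v v - (Φ.σ u * Φ.h v x + Φ.ε * (u * Φ.σ (Φ.h v x))) = 0 := by
    intro u hu
    have h1 := hcon u hu
    have h2 : Φ.h x v = Φ.ε * Φ.σ (Φ.h v x) := Φ.symm v x
    rw [Φ.sub_left, Φ.sub_right, Φ.sub_right, Φ.smul_left, Φ.smul_left, Φ.smul_right, Φ.smul_right, h2, ← h] at h1
    linear_combination h1 - Φ.h v v * hu
  have k1 := key 1 (by rw [map_one, one_mul])
  have k2 := key (-1) (by rw [map_neg, map_one]; ring)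
  rw [map_one, one_mul, one_mul] at k1
  rw [map_neg, map_one] at k2
  by_cases h2 : (2 : L) = 0
  · obtain ⟨y, hy⟩ := Φ.nt
    have hy0 : y ≠ 0 := by
      rintro rfl
      exact hy (map_zero _)
    have hy1 : Φ.σ y ≠ 0 := by
      rwa [Ne, map_eq_zero]
    have hu : y / Φ.σ y * Φ.σ (y / Φ.σ y) = 1 := by
      rw [map_div₀, Φ.inv]
      field_simp
    have k3 := key _ hu
    rw [map_div₀, Φ.inv] at k3
    set m := Φ.h v x
    have e1 : Φ.ε * Φ.σ m = -m := by linear_combination -k1 + Φ.h v v * h2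
    have e2 : Φ.σ y / y * m + y / Φ.σ y * (-m) = 0 := by
      rw [← e1]
      linear_combination -k3 + Φ.h v v * h2
    have e3 : (Φ.σ y / y - y / Φ.σ y) * m = 0 := by linear_combination e2
    rcases mul_eq_zero.1 e3 with e4 | e4
    · have e5 : (Φ.σ y - y) * (Φ.σ y + y) = 0 := by
        field_simp at e4
        linear_combination e4
      have e6 : (Φ.σ y + y) = Φ.σ y - y := by linear_combination y * h2
      rw [e6] at e5
      exact hy (sub_eq_zero.1 (mul_self_eq_zero.1 e5))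
    · exact hm e4
  · have h4 : (2 : L) * (2 * Φ.h v v) = 0 := by linear_combination k1 + k2
    rcases mul_eq_zero.1 h4 with h5 | h5
    · exact h2 h5
    · rcases mul_eq_zero.1 h5 with h6 | h6
      · exact h2 h6
      · exact h0 h6

/-- A vector of the line of `x₀` of the same norm as `v` and at nonzero distance from `v`. -/
theorem exists_on_line [Finite L] {v x₀ : W} (h0 : Φ.h x₀ x₀ ≠ 0) (hv : Φ.h v v ≠ 0) (hm : Φ.h v x₀ ≠ 0) :
    ∃ a : L, a ≠ 0 ∧ Φ.h v v = Φ.h (a • x₀) (a • x₀) ∧ Φ.h (v - a • x₀) (v - a • x₀) ≠ 0 := by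
  have h1 : Φ.σ (Φ.h v v / Φ.h x₀ x₀) = Φ.h v v / Φ.h x₀ x₀ := by
    rw [map_div₀, Φ.sig_self, Φ.sig_self, mul_div_mul_left _ _ Φ.eps_ne]
  obtain ⟨c, hc⟩ := Φ.exists_norm h1
  have hc0 : c ≠ 0 := by
    rintro rfl
    rw [zero_mul] at hc
    exact div_ne_zero hv h0 hc.symm
  have h2 : Φ.h v v = Φ.h (c • x₀) (c • x₀) := by
    rw [Φ.smul_left, Φ.smul_right, ← mul_assoc, hc, div_mul_cancel₀ _ h0]
  have h3 : Φ.h v (c • x₀) ≠ 0 := by
    rw [Φ.smul_right]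
    exact mul_ne_zero (by rwa [Ne, map_eq_zero]) hm
  obtain ⟨u, hu, h4⟩ := Φ.exists_unit h2 hv h3
  refine ⟨u * c, mul_ne_zero (Φ.ne_zero_of_norm hu) hc0, ?_, ?_⟩
  · rw [mul_smul, Φ.smul_left, Φ.smul_right, ← mul_assoc, hu, one_mul]
    exact h2
  · rw [mul_smul]
    exact h4

/-- **Link.** -/
theorem link [Finite L] (N : Subgroup (W ≃ₗ[L] W)) {x₀ : W} (h0 : Φ.h x₀ x₀ ≠ 0)
    (hN1 : ∀ (z : L) (hz : z * Φ.σ z = 1), Φ.rf x₀ h0 z (Φ.ne_zero_of_norm hz) ∈ N)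
    (hN2 : ∀ g k : W ≃ₗ[L] W, Φ.Isom g → Φ.Isom k → g * k * g⁻¹ * k⁻¹ ∈ N)
    {v : W} (hv : Φ.h v v ≠ 0) (hm : Φ.h v x₀ ≠ 0) : ∃ n ∈ N, Φ.Isom n ∧ ∃ a : L, n v = a • x₀ := by
  have key : ∀ w : W, ∀ hw : Φ.h w w ≠ 0, Φ.h w x₀ ≠ 0 → ∀ (z : L) (hz : z * Φ.σ z = 1),
      Φ.rf w hw z (Φ.ne_zero_of_norm hz) ∈ N := by
    intro w hw hwm z hz
    obtain ⟨a, ha, h1, h2⟩ := Φ.exists_on_line h0 hw hwm
    obtain ⟨z', hz', h3⟩ := Φ.exists_rf h1 h2
    have ht := Φ.rf_isom h2 hz'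
    set t := Φ.rf (w - a • x₀) h2 z' (Φ.ne_zero_of_norm hz') with ht'
    have h4 : Φ.h (a • x₀) (a • x₀) ≠ 0 := by rwa [← h1]
    have h5 := Φ.rf_conj ht hw z (Φ.ne_zero_of_norm hz) h4 h3
    rw [Φ.rf_smul h0 z (Φ.ne_zero_of_norm hz) ha h4] at h5
    have h6 := hN2 t (Φ.rf w hw z (Φ.ne_zero_of_norm hz)) ht (Φ.rf_isom hw hz)
    rw [h5] at h6
    have h7 := N.mul_mem (N.inv_mem h6) (hN1 z hz)
    rwa [mul_inv_rev, inv_inv, inv_mul_cancel_right] at h7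
  obtain ⟨a, ha, h1, h2⟩ := Φ.exists_on_line h0 hv hm
  obtain ⟨z, hz, h3⟩ := Φ.exists_rf h1 h2
  have h4 : Φ.h (v - a • x₀) x₀ ≠ 0 := by
    intro h4
    have h5 : Φ.h v (a • x₀) = Φ.h (a • x₀) (a • x₀) := by
      rw [Φ.smul_right, Φ.smul_right]
      congr 1
      rwa [Φ.sub_left, sub_eq_zero] at h4
    have h6 : Φ.h (a • x₀) v = Φ.h (a • x₀) (a • x₀) := by
      rw [Φ.symm v (a • x₀), h5, Φ.sig_self, ← mul_assoc, Φ.eps_mul, one_mul]
    apply h2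
    rw [Φ.sub_left, Φ.sub_right, Φ.sub_right, h5, h6, ← h1]
    ring
  exact ⟨_, key _ h2 h4 z hz, Φ.rf_isom h2 hz, a, h3⟩

end LF

end Cfsg.Agent.H900.Gen
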