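import Mathlib
import Cfsg.Agent.H900.Gen.Basic
import Cfsg.Agent.H900.Gen.LForm

/-!
# S2187, classical rows: the hermitian form over `L = F[b]`

`b` is an isometry of `V`, `W` a `b`-invariant nondegenerate subspace on which `F[b]` acts as a field `L`, `b² ≠ 1` on `W`.
Then `Φ.B v w = Tr (h v w)` for an `ε`-hermitian form `h` over `L`.
-/

set_option autoImplicit false
set_option linter.unusedSectionVars false

namespace Cfsg.Agent.H900.Gen

open Cfsg.Agent.H847.Bs QuadraticMap Cfsg.Agent.LieClassical.OrthCore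

variable {F V : Type*} [Field F] [AddCommGroup V] [Module F V]

/-- `F[b]` acts on `W` as the field `L` -/
structure Fld (Φ : Frm F V) (W : Submodule F V) (b : V ≃ₗ[F] V) (L : Type*) [Field L] [Algebra F L] [Module L W]
    [IsScalarTower F L W] where
  /-- the generator of the field -/
  β : L
  hβ : ∀ w : W, ((β • w : W) : V) = b w
  gen : Algebra.adjoin F ({β} : Set L) = ⊤
  two : ∃ w ∈ W, b (b w) ≠ w
  nd : Φ.NdOn W
  iso : b ∈ Φ.Iso

namespace Fld

variable {Φ : Frm F V} (H : HF Φ) {W : Submodule F V} {b : V ≃ₗ[F] V} {L : Type*} [Field L] [Algebra F L] [Module L W]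
  [IsScalarTower F L W] (D : Fld Φ W b L)

include D in
theorem nontriv : Nontrivial W := by
  obtain ⟨w, hw, h⟩ := D.two
  refine ⟨⟨⟨w, hw⟩, 0, fun h1 => h ?_⟩⟩
  have h2 : w = 0 := congrArg Subtype.val h1
  rw [h2, map_zero, map_zero]

theorem beta_ne : D.β ≠ 0 := by
  intro h
  obtain ⟨w, hw, h1⟩ := D.two
  have h2 := D.hβ ⟨w, hw⟩
  rw [h, zero_smul] at h2
  have h3 : w = 0 := (LinearEquiv.map_eq_zero_iff b).1 h2.symm
  exact h1 (by rw [h3, map_zero, map_zero])

include H D in
theorem exists_adj (l : L) : ∃ l' : L, ∀ v w : W, Φ.B (l • v : W) w = Φ.B v (l' • w : W) := by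
  have hl : l ∈ Algebra.adjoin F ({D.β} : Set L) := by
    rw [D.gen]
    trivial
  induction hl using Algebra.adjoin_induction with
  | mem x hx =>
    rw [Set.mem_singleton_iff] at hx
    subst hx
    refine ⟨D.β⁻¹, fun v w => ?_⟩
    have h1 := D.hβ (D.β⁻¹ • w)
    rw [smul_smul, mul_inv_cancel₀ D.beta_ne, one_smul] at h1
    rw [D.hβ, h1, D.iso.1]
  | algebraMap r =>
    refine ⟨algebraMap F L (H.s r), fun v w => ?_⟩
    rw [algebraMap_smul, algebraMap_smul, Submodule.coe_smul, Submodule.coe_smul, Φ.smul_left, Φ.smul_right, H.hs, H.inv]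
  | add x y _ _ hx hy =>
    obtain ⟨x', hx'⟩ := hx
    obtain ⟨y', hy'⟩ := hy
    refine ⟨x' + y', fun v w => ?_⟩
    rw [add_smul, add_smul, Submodule.coe_add, Submodule.coe_add, Φ.add_left, Φ.add_right, hx', hy']
  | mul x y _ _ hx hy =>
    obtain ⟨x', hx'⟩ := hx
    obtain ⟨y', hy'⟩ := hy
    refine ⟨y' * x', fun v w => ?_⟩
    rw [mul_smul, mul_smul, hx', hy']

include D in
theorem adj_unique {l l' : L} (h : ∀ v w : W, Φ.B v (l • w : W) = Φ.B v (l' • w : W)) : l = l' := by
  have := D.nontriv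
  obtain ⟨w, hw⟩ := exists_ne (0 : W)
  have h1 : (l - l') • w = 0 := by
    rw [sub_smul, sub_eq_zero]
    have h2 : ∀ y ∈ W, Φ.B ((l • w : W) - (l' • w : W) : V) y = 0 := by
      intro y hy
      apply (B_comm_zero Φ).2
      rw [B_sub_right, h ⟨y, hy⟩ w, sub_self]
    exact Subtype.ext (sub_eq_zero.1 (D.nd _ (W.sub_mem (l • w).2 (l' • w).2) h2))
  rcases smul_eq_zero.1 h1 with h2 | h2
  · exact sub_eq_zero.1 h2
  · exact absurd h2 hw

/-- the adjoint -/
noncomputable def adj (l : L) : L := Classical.choose (D.exists_adj H l)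

theorem adj_spec (l : L) (v w : W) : Φ.B (l • v : W) w = Φ.B v (D.adj H l • w : W) :=
  Classical.choose_spec (D.exists_adj H l) v w

theorem adj_eq {l l' : L} (h : ∀ v w : W, Φ.B (l • v : W) w = Φ.B v (l' • w : W)) : D.adj H l = l' :=
  D.adj_unique fun v w => by rw [← D.adj_spec, h]

theorem adj_adj (l : L) : D.adj H (D.adj H l) = l := by
  apply D.adj_eq
  intro v w
  rw [H.symm w, ← D.adj_spec, H.symm (l • w : W) v]

theorem adj_add (l m : L) : D.adj H (l + m) = D.adj H l + D.adj H m := by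
  apply D.adj_eq
  intro v w
  rw [add_smul, add_smul, Submodule.coe_add, Submodule.coe_add, Φ.add_left, Φ.add_right, D.adj_spec, D.adj_spec]

theorem adj_mul (l m : L) : D.adj H (l * m) = D.adj H l * D.adj H m := by
  apply D.adj_eq
  intro v w
  rw [mul_smul, mul_comm, mul_smul, D.adj_spec, D.adj_spec]

theorem adj_algebraMap (r : F) : D.adj H (algebraMap F L r) = algebraMap F L (H.s r) := by
  apply D.adj_eq
  intro v w
  rw [algebraMap_smul, algebraMap_smul, Submodule.coe_smul, Submodule.coe_smul, Φ.smul_left, Φ.smul_right, H.hs, H.inv]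

theorem adj_beta : D.adj H D.β = D.β⁻¹ := by
  apply D.adj_eq
  intro v w
  have h1 := D.hβ (D.β⁻¹ • w)
  rw [smul_smul, mul_inv_cancel₀ D.beta_ne, one_smul] at h1
  rw [D.hβ, h1, D.iso.1]

/-- the involution -/
noncomputable def σ : L ≃+* L where
  toFun := D.adj H
  invFun := D.adj H
  left_inv := D.adj_adj H
  right_inv := D.adj_adj H
  map_mul' := D.adj_mul H
  map_add' := D.adj_add H

theorem σ_apply (l : L) : D.σ H l = D.adj H l := rfl

theorem σ_nt : ∃ a, D.σ H a ≠ a := by
  refine ⟨D.β, fun h => ?_⟩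
  rw [σ_apply, adj_beta] at h
  obtain ⟨w, hw, h1⟩ := D.two
  apply h1
  have h3 : D.β * D.β = 1 := by
    nth_rw 1 [← h]
    exact inv_mul_cancel₀ D.beta_ne
  have h4 := D.hβ (D.β • ⟨w, hw⟩)
  have h5 := D.hβ ⟨w, hw⟩
  rw [smul_smul, h3, one_smul, h5] at h4
  exact h4.symm

section Trace

variable [Finite F] [Finite L]

omit [Module L W] [IsScalarTower F L W] in
theorem finDim : FiniteDimensional F L := Module.Finite.of_finite

theorem trace_σ (a : L) : Algebra.trace F L (D.σ H a) = H.s (Algebra.trace F L a) := by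
  have h := Algebra.trace_eq_of_equiv_equiv H.s (D.σ H) (by
    ext r
    exact (D.adj_algebraMap H r).symm) a
  rw [h, RingEquiv.apply_symm_apply]

/-- the functional `l ↦ B (l v) w` -/
def fL (Φ : Frm F V) {W : Submodule F V} {L : Type*} [Field L] [Algebra F L] [Module L W]
    [IsScalarTower F L W] (v w : W) : L →ₗ[F] F where
  toFun l := Φ.B (l • v : W) w
  map_add' a b := by rw [add_smul, Submodule.coe_add, Φ.add_left]
  map_smul' a l := by rw [smul_assoc, Submodule.coe_smul, Φ.smul_left, RingHom.id_apply, smul_eq_mul]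

theorem exists_h (v w : W) : ∃ c : L, ∀ l : L, Algebra.trace F L (c * l) = Φ.B (l • v : W) w := by
  have := finDim (F := F) (L := L)
  have hnd := traceForm_nondegenerate F L
  refine ⟨((Algebra.traceForm F L).toDual hnd).symm (fL Φ v w), fun l => ?_⟩
  have h1 := LinearMap.congr_fun (LinearEquiv.apply_symm_apply ((Algebra.traceForm F L).toDual hnd) (fL Φ v w)) l
  rw [LinearMap.BilinForm.toDual_def, Algebra.traceForm_apply] at h1
  exact h1

theorem trace_unique {c c' : L} (h : ∀ l : L, Algebra.trace F L (c * l) = Algebra.trace F L (c' * l)) : c = c' := by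
  have := finDim (F := F) (L := L)
  have hnd := traceForm_nondegenerate F L
  rw [← sub_eq_zero]
  apply hnd.1
  intro l
  rw [Algebra.traceForm_apply, sub_mul, map_sub, h, sub_self]

/-- the value of the hermitian form -/
noncomputable def hh (Φ : Frm F V) {W : Submodule F V} (L : Type*) [Field L] [Algebra F L] [Module L W]
    [IsScalarTower F L W] [Finite L] (v w : W) : L := Classical.choose (exists_h (Φ := Φ) (L := L) v w)

theorem hh_spec (v w : W) (l : L) : Algebra.trace F L (hh Φ L v w * l) = Φ.B (l • v : W) w :=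
  Classical.choose_spec (exists_h (Φ := Φ) (L := L) v w) l

theorem hh_eq {v w : W} {c : L} (h : ∀ l : L, Algebra.trace F L (c * l) = Φ.B (l • v : W) w) : hh Φ L v w = c :=
  trace_unique fun l => by rw [hh_spec, h]

/-- the hermitian form over `L` -/
noncomputable def lf : LF L W where
  h := hh Φ L
  σ := D.σ H
  ε := algebraMap F L H.ε
  add_left x y z := by
    apply hh_eq
    intro l
    rw [add_mul, map_add, hh_spec, hh_spec, smul_add, Submodule.coe_add, Φ.add_left]
  smul_left a x y := by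
    apply hh_eq
    intro l
    rw [mul_comm a, mul_assoc, hh_spec, mul_comm a l, mul_smul]
  symm x y := by
    apply hh_eq
    intro l
    have h1 : D.σ H (hh Φ L x y) * l = D.σ H (hh Φ L x y * D.σ H l) := by
      rw [map_mul, σ_apply, σ_apply, σ_apply, adj_adj]
    rw [mul_assoc, h1, ← Algebra.smul_def, map_smul, trace_σ, hh_spec, H.symm x (l • y : W), smul_eq_mul]
    congr 2
    rw [σ_apply, D.adj_spec H, adj_adj]
  inv a := by rw [σ_apply, σ_apply, adj_adj]
  nt := D.σ_nt H
  eps := by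
    rcases H.eps with h | h
    · left
      rw [h, map_one]
    · right
      rw [h, map_neg, map_one]

theorem lf_h (v w : W) : (D.lf H).h v w = hh Φ L v w := rfl

theorem B_eq (v w : W) : Φ.B v w = Algebra.trace F L ((D.lf H).h v w) := by
  have h := hh_spec (Φ := Φ) (L := L) v w 1
  rw [mul_one, one_smul] at h
  exact h.symm

theorem h_eq_zero_iff {v w : W} : (D.lf H).h v w = 0 ↔ ∀ l : L, Φ.B (l • v : W) w = 0 := by
  constructor
  · intro h l
    rw [← hh_spec]
    change hh Φ L v w = 0 at h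
    rw [h, zero_mul, map_zero]
  · intro h
    apply hh_eq
    intro l
    rw [h, zero_mul, map_zero]

theorem exists_half : ∃ l : L, l + D.σ H l = 1 := by
  have h1 : ∃ m : L, m + D.σ H m ≠ 0 := by
    by_contra hcon
    push Not at hcon
    obtain ⟨a, ha⟩ := D.σ_nt H
    have h1 := hcon 1
    have h2 := hcon a
    rw [map_one] at h1
    apply ha
    linear_combination h2 - a * h1
  obtain ⟨m, hm⟩ := h1
  refine ⟨m / (m + D.σ H m), ?_⟩
  have h2 : D.σ H (m + D.σ H m) = m + D.σ H m := by
    rw [map_add, σ_apply, σ_apply, adj_adj, add_comm]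
  rw [map_div₀, h2, ← add_div, div_self hm]

omit [Finite F] [Finite L] in
theorem beta_ne_one : D.β ≠ 1 := by
  intro h
  obtain ⟨w, hw, h1⟩ := D.two
  have h2 := D.hβ ⟨w, hw⟩
  rw [h, one_smul] at h2
  apply h1
  change w = b w at h2
  rw [← h2, ← h2]

/-- the quadratic form is determined by the hermitian form -/
theorem exists_q (hΦ : Cl Φ) : ∃ l₀ : L, ∀ v : W, Φ.q v = Algebra.trace F L (l₀ * (D.lf H).h v v) := by
  rcases hΦ with h | ⟨r, h⟩ | ⟨Q, rfl, h⟩
  · exact ⟨0, fun v => by rw [h.q, zero_mul, map_zero]⟩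
  · exact ⟨0, fun v => by rw [h.q, zero_mul, map_zero]⟩
  · obtain ⟨l₀, hl⟩ := D.exists_half H
    refine ⟨l₀, fun v => ?_⟩
    have e1 : ∀ v : W, Algebra.trace F L (l₀ * (D.lf H).h v v) = (frmQ Q).B (l₀ • v : W) v := by
      intro v
      rw [mul_comm, lf_h, hh_spec]
    have hb := D.iso
    have hcomm : ∀ x y : V, (frmQ Q).B x y = (frmQ Q).B y x := fun x y => polar_comm _ _ _
    let θ : W → F := fun v => Q v - (frmQ Q).B (l₀ • v : W) v
    have hadd : ∀ v w : W, θ (v + w) = θ v + θ w := by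
      intro v w
      have h1 : (frmQ Q).B (l₀ • w : W) v = (frmQ Q).B (D.σ H l₀ • v : W) w := by
        rw [hcomm, D.adj_spec H, σ_apply, adj_adj]
      have h2 : (frmQ Q).B (l₀ • v : W) w + (frmQ Q).B (D.σ H l₀ • v : W) w = (frmQ Q).B v w := by
        rw [← (frmQ Q).add_left, ← Submodule.coe_add, ← add_smul, hl, one_smul]
      have h3 : Q ((v + w : W) : V) = Q v + Q w + (frmQ Q).B v w := by
        rw [Submodule.coe_add]
        exact Q_add _ _
      show Q ((v + w : W) : V) - (frmQ Q).B (l₀ • (v + w) : W) (v + w : W) = _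
      rw [h3, smul_add, Submodule.coe_add, Submodule.coe_add, (frmQ Q).add_left, (frmQ Q).add_right,
        (frmQ Q).add_right, h1, ← h2]
      ring
    have hneg : ∀ v : W, θ (-v) = -θ v := by
      intro v
      have h0 : θ 0 = 0 := by
        have := hadd 0 0
        rw [add_zero] at this
        linear_combination -this
      have := hadd v (-v)
      rw [add_neg_cancel, h0] at this
      linear_combination -this
    have hbt : ∀ v : W, θ (D.β • v) = θ v := by
      intro v
      show Q ((D.β • v : W) : V) - (frmQ Q).B (l₀ • D.β • v : W) (D.β • v : W) = Q v - (frmQ Q).B (l₀ • v : W) v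
      have h1 : l₀ • D.β • v = D.β • l₀ • v := by
        rw [smul_smul, smul_smul, mul_comm]
      rw [h1, D.hβ, D.hβ, hb.1]
      congr 1
      exact hb.2 v
    have hz : ∀ v : W, θ v = 0 := by
      intro v
      have h1 : D.β - 1 ≠ 0 := sub_ne_zero.2 D.beta_ne_one
      have h2 : v = D.β • ((D.β - 1)⁻¹ • v) + -((D.β - 1)⁻¹ • v) := by
        have h3 : D.β • ((D.β - 1)⁻¹ • v) + -((D.β - 1)⁻¹ • v) = (D.β - 1) • ((D.β - 1)⁻¹ • v) := by
          rw [sub_smul, one_smul, ← sub_eq_add_neg]
        rw [h3, smul_smul, mul_inv_cancel₀ h1, one_smul]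
      rw [h2, hadd, hbt, hneg, add_neg_cancel]
    have h4 := hz v
    rw [e1]
    exact sub_eq_zero.1 h4

theorem isom_mem (hΦ : Cl Φ) {g : W ≃ₗ[L] W} (hg : (D.lf H).Isom g) : g.restrictScalars F ∈ (Φ.on W).Iso := by
  obtain ⟨l₀, hl⟩ := D.exists_q H hΦ
  constructor
  · intro x y
    show Φ.B (g x) (g y) = Φ.B x y
    rw [D.B_eq H, D.B_eq H, hg]
  · intro x
    show Φ.q (g x) = Φ.q x
    rw [hl, hl, hg]

end Trace

end Fld

/-- the homomorphism `g ↦ g ⊕ 1` -/
noncomputable def extHom [Finite F] [FiniteDimensional F V] {Φ : Frm F V} {W : Submodule F V} (hW : Φ.NdOn W) :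
    (W ≃ₗ[F] W) →* (V ≃ₗ[F] V) where
  toFun := ext hW
  map_one' := by
    ext v
    obtain ⟨w, hw, y, hy, rfl⟩ := exists_dec hW v
    rw [map_add, ext_apply_perp hW _ hy]
    have := ext_apply_mem hW 1 ⟨w, hw⟩
    dsimp only at this
    rw [this]
    rfl
  map_mul' g k := by
    ext v
    obtain ⟨w, hw, y, hy, rfl⟩ := exists_dec hW v
    have h1 := ext_apply_mem hW (g * k) ⟨w, hw⟩
    have h2 := ext_apply_mem hW k ⟨w, hw⟩
    have h3 := ext_apply_mem hW g (k ⟨w, hw⟩)
    dsimp only at h1 h2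
    rw [LinearEquiv.mul_apply, map_add, map_add, map_add, ext_apply_perp hW _ hy, ext_apply_perp hW _ hy,
      ext_apply_perp hW _ hy, h1, h2, h3]
    rfl

end Cfsg.Agent.H900.Gen
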