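import Mathlib
import Cfsg.Agent.H900.Gen.Link

/-!
# S2187, classical rows: merging two isomorphic irreducible summands
-/

set_option autoImplicit false
set_option linter.unusedSectionVars false

namespace Cfsg.Agent.H900.Gen

open Cfsg.Agent.H847.Bs QuadraticMap Cfsg.Agent.LieClassical.OrthCore

/-! ### The fixed field of the involution -/

section Fix

variable {L : Type*} [Field L] [Finite L] (σ : L ≃+* L)

/-- the elements fixed by `σ` -/
def fixG : AddSubgroup L where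
  carrier := {a | σ a = a}
  add_mem' := fun {a b} ha hb => by
    show σ (a + b) = a + b
    rw [map_add, ha, hb]
  zero_mem' := map_zero σ
  neg_mem' := fun {a} ha => by
    show σ (-a) = -a
    rw [map_neg, ha]

theorem mem_fixG {a : L} : a ∈ fixG σ ↔ σ a = a := Iff.rfl

theorem card_fixG (hσ : ∀ a, σ (σ a) = a) (hnt : ∃ a, σ a ≠ a) : Nat.card (fixG σ) ^ 2 = Nat.card L := by
  obtain ⟨a, ha⟩ := hnt
  -- an element of trace one
  have h1 : ∃ l : L, l + σ l = 1 := by
    have h1 : ∃ m : L, m + σ m ≠ 0 := by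
      by_contra hcon
      push Not at hcon
      have h1 := hcon 1
      have h2 := hcon a
      rw [map_one] at h1
      apply ha
      linear_combination h2 - a * h1
    obtain ⟨m, hm⟩ := h1
    refine ⟨m / (m + σ m), ?_⟩
    have h2 : σ (m + σ m) = m + σ m := by
      rw [map_add, hσ, add_comm]
    rw [map_div₀, h2, ← add_div, div_self hm]
  obtain ⟨l, hl⟩ := h1
  let T : L →+ L := AddMonoidHom.id L - (σ : L →+ L)
  have hT : ∀ x, T x = x - σ x := fun x => rfl
  have hd : a - σ a ≠ 0 := sub_ne_zero.2 (Ne.symm ha)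
  have hsd : σ (a - σ a) = -(a - σ a) := by
    rw [map_sub, hσ]
    ring
  have hker : T.ker = fixG σ := by
    ext x
    rw [AddMonoidHom.mem_ker, hT, sub_eq_zero, mem_fixG]
    exact eq_comm
  have hrange : ∀ x, x ∈ T.range ↔ σ x = -x := by
    intro x
    constructor
    · rintro ⟨y, rfl⟩
      rw [hT, map_sub, hσ]
      ring
    · intro hx
      refine ⟨l * x, ?_⟩
      rw [hT, map_mul, hx]
      linear_combination x * hl
  have hcard : Nat.card T.range = Nat.card (fixG σ) := by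
    symm
    refine Nat.card_congr ⟨fun x => ⟨(a - σ a) * x, (hrange _).2 ?_⟩, fun y => ⟨(a - σ a)⁻¹ * y, ?_⟩, ?_, ?_⟩
    · rw [map_mul, hsd, x.2]
      ring
    · show σ _ = _
      rw [map_mul, map_inv₀, hsd, (hrange _).1 y.2]
      field_simp
    · intro x
      apply Subtype.ext
      show (a - σ a)⁻¹ * ((a - σ a) * x) = x
      rw [← mul_assoc, inv_mul_cancel₀ hd, one_mul]
    · intro y
      apply Subtype.ext
      show (a - σ a) * ((a - σ a)⁻¹ * y) = y
      rw [← mul_assoc, mul_inv_cancel₀ hd, one_mul]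
  have h2 := AddSubgroup.card_mul_index T.ker
  rw [AddSubgroup.index_ker, hcard, hker] at h2
  rw [_root_.sq, h2]

/-- a fixed element `κ ≠ 0, -1` in the kernel of an additive map -/
theorem exists_kappa {M : Type*} [AddCommGroup M] (φ : L →+ M) {ρ : ℕ} (R : Set M) (hR : Nat.card R ≤ ρ) (hRf : R.Finite)
    (hφ : ∀ x, σ x = x → φ x ∈ R) (hρ : 3 * ρ ≤ Nat.card (fixG σ)) :
    ∃ k : L, σ k = k ∧ k ≠ 0 ∧ k ≠ -1 ∧ φ k = 0 := by
  let ψ : fixG σ →+ M := φ.comp (fixG σ).subtype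
  have hψ : ∀ x : fixG σ, ψ x = φ x := fun x => rfl
  have h1 := AddSubgroup.card_mul_index ψ.ker
  rw [AddSubgroup.index_ker] at h1
  have h2 : Nat.card ψ.range ≤ ρ := by
    refine le_trans ?_ hR
    have : Finite R := hRf
    refine Nat.card_le_card_of_injective (fun x : ψ.range => (⟨x.1, ?_⟩ : R)) ?_
    · obtain ⟨y, hy⟩ := x.2
      rw [← hy]
      exact hφ _ y.2
    · intro x y h
      have h' : (x : M) = y := congrArg (fun z : R => (z : M)) h
      exact Subtype.ext h'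
  have h3 : 3 ≤ Nat.card ψ.ker := by
    by_contra hcon
    push Not at hcon
    have h4 : Nat.card ψ.ker * Nat.card ψ.range ≤ 2 * ρ := Nat.mul_le_mul (by omega) h2
    rw [h1] at h4
    have h5 : 0 < Nat.card (fixG σ) := Nat.card_pos
    omega
  -- remove two elements
  by_contra hcon
  push Not at hcon
  have h4 : ∀ x : ψ.ker, ((x : fixG σ) : L) = 0 ∨ ((x : fixG σ) : L) = -1 := by
    intro x
    by_contra h5
    push Not at h5
    exact hcon _ x.1.2 h5.1 h5.2 x.2
  classical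
  have h5 : Nat.card ψ.ker ≤ Nat.card (({0, -1} : Finset L) : Set L) := by
    refine Nat.card_le_card_of_injective (fun x : ψ.ker => (⟨((x : fixG σ) : L), ?_⟩ : (({0, -1} : Finset L) : Set L))) ?_
    · rcases h4 x with h | h <;> simp [h]
    · intro x y h
      have h' : ((x : fixG σ) : L) = ((y : fixG σ) : L) := congrArg (fun z : (({0, -1} : Finset L) : Set L) => (z : L)) h
      exact Subtype.ext (Subtype.ext h')
  have h6 : Nat.card (({0, -1} : Finset L) : Set L) ≤ 2 := by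
    rw [Nat.card_coe_set_eq, Set.ncard_coe_finset]
    exact Finset.card_le_two
  omega

end Fix

variable {F V : Type*} [Field F] [AddCommGroup V] [Module F V] [Finite F] [FiniteDimensional F V]

/-- the subspace is large enough (compared with the field of definition) -/
def Big (Φ : Frm F V) (X : Submodule F V) : Prop :=
  (IsSp Φ ∧ 9 ≤ Nat.card X) ∨ (∃ r, IsHerm r Φ ∧ 9 * Nat.card F ≤ Nat.card X) ∨
    ∃ Q : QuadraticForm F V, Φ = frmQ Q ∧ Nondeg Q ∧ 9 * Nat.card F ^ 2 ≤ Nat.card X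

theorem Big.cl {Φ : Frm F V} {X : Submodule F V} (h : Big Φ X) : Cl Φ := by
  rcases h with h | ⟨r, h, -⟩ | ⟨Q, h1, h2, -⟩
  · exact Or.inl h.1
  · exact Or.inr (Or.inl ⟨r, h⟩)
  · exact Or.inr (Or.inr ⟨Q, h1, h2⟩)

namespace Fld

variable {Φ : Frm F V} (H : HF Φ) {W : Submodule F V} {b : V ≃ₗ[F] V} {L : Type*} [Field L] [Algebra F L] [Module L W]
  [IsScalarTower F L W] [Finite L] (D : Fld Φ W b L)

include D in
/-- a line has as many elements as `L` -/
theorem card_line {X : Submodule F V} (hXW : X ≤ W) {x₀ : W} (hX : Ln L X x₀) (h0 : x₀ ≠ 0) :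
    Nat.card L = Nat.card X := by
  refine Nat.card_congr (Equiv.ofBijective (fun a : L => (⟨((a • x₀ : W) : V), (hX _).2 ⟨a, rfl⟩⟩ : X)) ⟨?_, ?_⟩)
  · intro a c h
    have h' : ((a • x₀ : W) : V) = (c • x₀ : W) := congrArg (fun z : X => (z : V)) h
    have h1 : (a - c) • x₀ = 0 := by
      rw [sub_smul, sub_eq_zero]
      exact Subtype.ext h'
    rcases smul_eq_zero.1 h1 with h2 | h2
    · exact sub_eq_zero.1 h2
    · exact absurd h2 h0
  · intro x
    obtain ⟨a, ha⟩ := (hX ⟨x, hXW x.2⟩).1 x.2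
    exact ⟨a, Subtype.ext (congrArg (fun z : W => (z : V)) ha).symm⟩

/-- **Change of the `L`-norm.** -/
theorem exists_change {X : Submodule F V} (hbig : Big Φ X) (hXW : X ≤ W) {x : W} (hX : Ln L X x)
    (hx : (D.lf H).h x x ≠ 0) : ∃ a : L, a ≠ 0 ∧ Φ.B (a • x : W) (a • x : W) = Φ.B x x ∧ Φ.q (a • x : W) = Φ.q x ∧
      (D.lf H).h (a • x) (a • x) ≠ (D.lf H).h x x := by
  have hx0 : x ≠ 0 := by
    rintro rfl
    exact hx ((D.lf H).zero_left _)
  have hc := D.card_line hXW hX hx0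
  have hc2 := card_fixG (D.σ H) (fun a => by rw [σ_apply, σ_apply, adj_adj]) (D.σ_nt H)
  -- the general reduction
  have red : ∀ k : L, D.σ H k = k → k ≠ 0 → k ≠ -1 →
      (∀ a : L, a * D.σ H a = 1 + k → Φ.B (a • x : W) (a • x : W) = Φ.B x x ∧ Φ.q (a • x : W) = Φ.q x) →
      ∃ a : L, a ≠ 0 ∧ Φ.B (a • x : W) (a • x : W) = Φ.B x x ∧ Φ.q (a • x : W) = Φ.q x ∧
      (D.lf H).h (a • x) (a • x) ≠ (D.lf H).h x x := by
    intro k hk hk0 hk1 hB
    obtain ⟨a, ha⟩ := (D.lf H).exists_norm (a := 1 + k) (by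
      show D.σ H (1 + k) = 1 + k
      rw [map_add, map_one, hk])
    change a * D.σ H a = 1 + k at ha
    have hk2 : 1 + k ≠ 0 := fun h => hk1 (by linear_combination h)
    refine ⟨a, ?_, (hB a ha).1, (hB a ha).2, ?_⟩
    · rintro rfl
      rw [zero_mul] at ha
      exact hk2 ha.symm
    · intro h
      rw [(D.lf H).smul_left, (D.lf H).smul_right, ← mul_assoc] at h
      have h1 : (a * D.σ H a) * (D.lf H).h x x = (D.lf H).h x x := h
      rw [ha] at h1
      have h2 : k * (D.lf H).h x x = 0 := by linear_combination h1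
      rcases mul_eq_zero.1 h2 with h3 | h3
      · exact hk0 h3
      · exact hx h3
  have hnorm : ∀ a : L, (D.lf H).h (a • x) (a • x) = a * D.σ H a * (D.lf H).h x x := by
    intro a
    rw [(D.lf H).smul_left, (D.lf H).smul_right, ← mul_assoc]
    rfl
  rcases hbig with ⟨h, h9⟩ | ⟨r, h, h9⟩ | ⟨Q, rfl, hQ, h9⟩
  · obtain ⟨k, h1, h2, h3, -⟩ := exists_kappa (D.σ H) (0 : L →+ F) (ρ := 1) {0} (by simp) (Set.finite_singleton _)
      (fun _ _ => rfl) (by
        rw [← hc, ← hc2] at h9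
        by_contra hcon
        push Not at hcon
        have h1 : Nat.card (fixG (D.σ H)) ≤ 2 := by omega
        have h2 : Nat.card (fixG (D.σ H)) ^ 2 ≤ 2 ^ 2 := Nat.pow_le_pow_left h1 2
        omega)
    exact red k h1 h2 h3 fun a _ => ⟨by rw [h.alt, h.alt], by rw [h.q, h.q]⟩
  · -- hermitian: the values of `B (κ x) x` are fixed by the involution of `F`
    have := Fintype.ofFinite F
    have hF : Nat.card F = r ^ 2 := h.card
    have hr : 2 ≤ r := Cfsg.Agent.LieClassical.HermBasic.two_le (F := F) (by rw [← Nat.card_eq_fintype_card, hF])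
    let φ : L →+ F := ((Algebra.trace F L).toAddMonoidHom).comp (AddMonoidHom.mulRight ((D.lf H).h x x))
    have hφ : ∀ k : L, φ k = Algebra.trace F L (k * (D.lf H).h x x) := fun k => rfl
    have hR : Nat.card {a : F | a ^ r = a} ≤ r := by
      classical
      have h1 : {a : F | a ^ r = a} ⊆ ((Polynomial.X ^ r - Polynomial.X : Polynomial F).roots.toFinset : Set F) := by
        intro a ha
        rw [Finset.mem_coe, Multiset.mem_toFinset, Polynomial.mem_roots (FiniteField.X_pow_card_sub_X_ne_zero F (by omega)),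
          Polynomial.IsRoot.def]
        simp only [Polynomial.eval_sub, Polynomial.eval_pow, Polynomial.eval_X]
        exact sub_eq_zero.2 ha
      rw [Nat.card_coe_set_eq]
      refine (Set.ncard_le_ncard h1 (Finset.finite_toSet _)).trans ?_
      rw [Set.ncard_coe_finset]
      refine (Multiset.toFinset_card_le _).trans ?_
      refine (Polynomial.card_roots' _).trans ?_
      rw [FiniteField.X_pow_card_sub_X_natDegree_eq F (by omega)]
    obtain ⟨k, h1, h2, h3, h4⟩ := exists_kappa (D.σ H) φ (ρ := r) {a : F | a ^ r = a} hR (Set.toFinite _)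
      (fun k hk => by
        show φ k ^ r = φ k
        have e1 : φ k = Φ.B (k • x : W) x := by
          rw [hφ, D.B_eq H, (D.lf H).smul_left]
        have e2 : Φ.B (k • x : W) x = Φ.B x (k • x : W) := by
          rw [D.adj_spec H]
          change D.adj H k = k at hk
          rw [hk]
        rw [e1]
        nth_rw 2 [e2]
        exact (h.symm _ _).symm) (by
        rw [← hc, ← hc2, hF] at h9
        by_contra hcon
        push Not at hcon
        have h1 : Nat.card (fixG (D.σ H)) ^ 2 < (3 * r) ^ 2 := Nat.pow_lt_pow_left hcon (by norm_num)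
        rw [mul_pow] at h1
        omega)
    refine red k h1 h2 h3 fun a ha => ⟨?_, by rw [h.q, h.q]⟩
    rw [D.B_eq H, D.B_eq H x x, hnorm, ha, add_mul, one_mul, map_add, ← hφ, h4, add_zero]
  · obtain ⟨l₀, hl⟩ := D.exists_q H (Or.inr (Or.inr ⟨Q, rfl, hQ⟩))
    let φ : L →+ F := ((Algebra.trace F L).toAddMonoidHom).comp (AddMonoidHom.mulRight (l₀ * (D.lf H).h x x))
    have hφ : ∀ k : L, φ k = Algebra.trace F L (k * (l₀ * (D.lf H).h x x)) := fun k => rfl
    obtain ⟨k, h1, h2, h3, h4⟩ := exists_kappa (D.σ H) φ (ρ := Nat.card F) Set.univ (by rw [Nat.card_univ])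
      (Set.toFinite _) (fun k hk => Set.mem_univ _) (by
        rw [← hc, ← hc2] at h9
        by_contra hcon
        push Not at hcon
        have h1 : Nat.card (fixG (D.σ H)) ^ 2 < (3 * Nat.card F) ^ 2 := Nat.pow_lt_pow_left hcon (by norm_num)
        rw [mul_pow] at h1
        omega)
    have hq : ∀ a : L, a * D.σ H a = 1 + k → (frmQ Q).q (a • x : W) = (frmQ Q).q x := by
      intro a ha
      rw [hl, hl, hnorm, ha]
      have e1 : l₀ * ((1 + k) * (D.lf H).h x x) = l₀ * (D.lf H).h x x + k * (l₀ * (D.lf H).h x x) := by ring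
      rw [e1, map_add, ← hφ, h4, add_zero]
    refine red k h1 h2 h3 fun a ha => ⟨?_, hq a ha⟩
    have e2 := hq a ha
    change Q _ = Q _ at e2
    show polar Q _ _ = polar Q _ _
    rw [polar_self', polar_self', e2]

include H D in
/-- the dimension of `L` over `F` is even if the form is bilinear -/
theorem card_even (hs : ∀ a, Φ.s a = a) : ∃ d : ℕ, Nat.card L = Nat.card F ^ (2 * d) := by
  let M : Submodule F L :=
    { carrier := {a | D.σ H a = a}
      add_mem' := fun {a b} ha hb => by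
        show D.σ H (a + b) = a + b
        rw [map_add, ha, hb]
      zero_mem' := map_zero _
      smul_mem' := fun r a ha => by
        show D.σ H (r • a) = r • a
        have h1 : D.σ H (algebraMap F L r) = algebraMap F L r := by
          rw [D.σ_apply H, D.adj_algebraMap H, ← H.hs, hs]
        rw [Algebra.smul_def, map_mul, h1]
        congr 1 }
  have h1 : Nat.card (fixG (D.σ H)) ^ 2 = Nat.card L := card_fixG _ (D.lf H).inv (D.σ_nt H)
  have h2 : Nat.card (fixG (D.σ H)) = Nat.card M := rfl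
  have : Module.Finite F M := Module.Finite.of_finite
  refine ⟨Module.finrank F M, ?_⟩
  rw [← h1, h2, Module.natCard_eq_pow_finrank (K := F) (V := M), ← pow_mul, mul_comm]

include H D in
/-- merging of vectors whose `L`-norm is not zero -/
theorem merge_key (hΦ : Cl Φ) {N : Subgroup (V ≃ₗ[F] V)} {X Y : Submodule F V} (hW : X ⊔ Y = W)
    (hXY : Φ.Orth X Y) (hXn : Φ.NdOn X) {x₀ : W} (hX : Ln L X x₀) (h0 : x₀ ≠ 0) (hN1 : Has1 Φ N X)
    (hN2 : ∀ g ∈ Φ.Iso, ∀ k ∈ Φ.Iso, g * b = b * g → k * b = b * k → Loc Φ W g → Loc Φ W k → g * k * g⁻¹ * k⁻¹ ∈ N) :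
    (D.lf H).h x₀ x₀ ≠ 0 ∧ (∀ x y : W, (x : V) ∈ X → (y : V) ∈ Y → x ≠ 0 → (D.lf H).h (x + y) (x + y) ≠ 0 →
      ∃ n ∈ N, Loc Φ (X ⊔ Y) n ∧ n ((x : V) + y) ∈ X) ∧
    (∀ x y : W, (x : V) ∈ X → (y : V) ∈ Y → (D.lf H).h (x + y) (x + y) = (D.lf H).h x x + (D.lf H).h y y) := by
  have hXW : X ≤ W := hW ▸ le_sup_left
  have h00 : (D.lf H).h x₀ x₀ ≠ 0 := by
    intro h
    apply h0
    apply Subtype.ext
    refine hXn x₀ ((hX x₀).2 ⟨1, (one_smul _ _).symm⟩) fun y hy => ?_
    obtain ⟨a, ha⟩ := (hX ⟨y, hXW hy⟩).1 hy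
    have h1 : (D.lf H).h x₀ (a • x₀) = 0 := by rw [(D.lf H).smul_right, h, mul_zero]
    have h2 := (D.h_eq_zero_iff H).1 h1 1
    rw [one_smul, ← ha] at h2
    exact h2
  -- orthogonality over `L`
  have horth : ∀ x y : W, (x : V) ∈ X → (y : V) ∈ Y → (D.lf H).h x y = 0 := by
    intro x y hx hy
    rw [D.h_eq_zero_iff H]
    intro l
    obtain ⟨a, rfl⟩ := (hX x).1 hx
    exact hXY _ ((hX _).2 ⟨l * a, by rw [mul_smul]⟩) _ hy
  refine ⟨h00, ?_, ?_⟩
  · intro x y hx hy hx0 hxy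
    obtain ⟨a, ha⟩ := (hX x).1 hx
    have ha0 : a ≠ 0 := by
      rintro rfl
      exact hx0 (by rw [ha, zero_smul])
    have h2 : (D.lf H).h (x + y) x₀ ≠ 0 := by
      have h3 : (D.lf H).h y x₀ = 0 := by
        rw [(D.lf H).symm x₀ y, horth x₀ y ((hX x₀).2 ⟨1, (one_smul _ _).symm⟩) hy, map_zero, mul_zero]
      rw [(D.lf H).add_left, h3, add_zero, ha, (D.lf H).smul_left]
      exact mul_ne_zero ha0 h00
    obtain ⟨n, hn, -, hl, hnx⟩ := D.link_V H hΦ N hXW hX h00 (fun g hg _ hgl => hN1 g hg hgl) hN2 hxy h2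
    rw [hW]
    exact ⟨n, hn, hl, hnx⟩
  · intro x y hx hy
    have hyx : (D.lf H).h y x = 0 := by
      rw [(D.lf H).symm x y, horth x y hx hy, map_zero, mul_zero]
    rw [(D.lf H).add_left, (D.lf H).add_right, (D.lf H).add_right, horth x y hx hy, hyx, add_zero, zero_add]

include H D in
/-- merging of vectors whose norm (or whose value under `q`) is not zero -/
theorem merge_q (hΦ : Cl Φ) {N : Subgroup (V ≃ₗ[F] V)} {X Y : Submodule F V} (hW : X ⊔ Y = W)
    (hXY : Φ.Orth X Y) (hXn : Φ.NdOn X) {x₀ : W} (hX : Ln L X x₀) (h0 : x₀ ≠ 0) (hN1 : Has1 Φ N X)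
    (hN2 : ∀ g ∈ Φ.Iso, ∀ k ∈ Φ.Iso, g * b = b * g → k * b = b * k → Loc Φ W g → Loc Φ W k → g * k * g⁻¹ * k⁻¹ ∈ N)
    {x y : V} (hx : x ∈ X) (hy : y ∈ Y) (hx0 : x ≠ 0) (hq : Φ.B (x + y) (x + y) ≠ 0 ∨ Φ.q (x + y) ≠ 0) :
    ∃ n ∈ N, Loc Φ (X ⊔ Y) n ∧ n (x + y) ∈ X := by
  have hXW : X ≤ W := hW ▸ le_sup_left
  have hYW : Y ≤ W := hW ▸ le_sup_right
  obtain ⟨-, h1, -⟩ := D.merge_key H hΦ hW hXY hXn hX h0 hN1 hN2
  refine h1 ⟨x, hXW hx⟩ ⟨y, hYW hy⟩ hx hy (fun h => hx0 (congrArg (fun z : W => (z : V)) h)) fun h => ?_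
  rcases hq with h2 | h2
  · apply h2
    have h3 := D.B_eq H ((⟨x, hXW hx⟩ : W) + ⟨y, hYW hy⟩) ((⟨x, hXW hx⟩ : W) + ⟨y, hYW hy⟩)
    rw [h, map_zero] at h3
    exact h3
  · obtain ⟨l₀, hl⟩ := D.exists_q H hΦ
    apply h2
    have h3 := hl ((⟨x, hXW hx⟩ : W) + ⟨y, hYW hy⟩)
    rw [h, mul_zero, map_zero] at h3
    exact h3

include H D in
/-- **Merging.**  `X` is an `L`-line in `W = X ⟂ Y`; `N` contains the isometries living on `X` and the commutators of
isometries living on `W` which commute with `b`. -/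
theorem merge {N : Subgroup (V ≃ₗ[F] V)} {X Y : Submodule F V} (hbig : Big Φ X) (hW : X ⊔ Y = W)
    (hXY : Φ.Orth X Y) (hXn : Φ.NdOn X) {x₀ : W} (hX : Ln L X x₀) (h0 : x₀ ≠ 0) (hN1 : Has1 Φ N X)
    (hN2 : ∀ g ∈ Φ.Iso, ∀ k ∈ Φ.Iso, g * b = b * g → k * b = b * k → Loc Φ W g → Loc Φ W k → g * k * g⁻¹ * k⁻¹ ∈ N) :
    Mg Φ N X Y := by
  have hΦ := hbig.cl
  have hXW : X ≤ W := hW ▸ le_sup_left
  have hYW : Y ≤ W := hW ▸ le_sup_right
  obtain ⟨h00, key', hsum⟩ := D.merge_key H hΦ hW hXY hXn hX h0 hN1 hN2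
  have key : ∀ x y : W, (x : V) ∈ X → (y : V) ∈ Y → x ≠ 0 → (D.lf H).h x x + (D.lf H).h y y ≠ 0 →
      ∃ n ∈ N, Loc Φ (X ⊔ Y) n ∧ n ((x : V) + y) ∈ X := by
    intro x y hx hy hx0 hxy
    exact key' x y hx hy hx0 (by rwa [hsum x y hx hy])
  intro x hx y hy hx0 hy0
  set x' : W := ⟨x, hXW hx⟩ with hx'
  set y' : W := ⟨y, hYW hy⟩ with hy'
  have hx0' : x' ≠ 0 := fun h => hx0 (congrArg (fun z : W => (z : V)) h)
  by_cases h1 : (D.lf H).h x' x' + (D.lf H).h y' y' = 0
  · obtain ⟨a₀, ha₀⟩ := (hX x').1 hx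
    have ha0 : a₀ ≠ 0 := by
      rintro rfl
      exact hx0' (by rw [ha₀, zero_smul])
    have hX' : Ln L X x' := by
      intro z
      rw [hX z]
      constructor
      · rintro ⟨c, rfl⟩
        exact ⟨c * a₀⁻¹, by rw [ha₀, smul_smul, mul_assoc, inv_mul_cancel₀ ha0, mul_one]⟩
      · rintro ⟨c, rfl⟩
        exact ⟨c * a₀, by rw [ha₀, smul_smul]⟩
    have hxx : (D.lf H).h x' x' ≠ 0 := by
      rw [ha₀, (D.lf H).smul_left, (D.lf H).smul_right]
      exact mul_ne_zero ha0 (mul_ne_zero (by rwa [Ne, map_eq_zero]) h00)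
    obtain ⟨a, ha, hB, hq, hh⟩ := D.exists_change H hbig hXW hX' hxx
    have hne : (a • x' : W) ≠ 0 := smul_ne_zero ha hx0'
    obtain ⟨g, hg, hgl, hgx⟩ := hΦ.witt_on hXn hx ((hX' _).2 ⟨a, rfl⟩) hx0
      (fun h => hne (Subtype.ext h)) hB.symm hq.symm
    obtain ⟨n, hn, hnl, hnx⟩ := key (a • x') y' ((hX' _).2 ⟨a, rfl⟩) hy hne (fun h => hh (by linear_combination h - h1))
    have hgy : g y = y := hgl y fun w hw => (B_comm_zero Φ).1 (hXY w hw y hy)
    refine ⟨n * g, N.mul_mem hn (hN1 g hg hgl), ?_, ?_⟩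
    · intro z hz
      rw [LinearEquiv.mul_apply, hgl z fun w hw => hz w (Submodule.mem_sup_left hw), hnl z hz]
    · rw [LinearEquiv.mul_apply, map_add, hgx, hgy]
      exact hnx
  · exact key x' y' hx hy hx0' h1

end Fld

end Cfsg.Agent.H900.Gen
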