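import Mathlib
import Cfsg.Agent.H900.Gen.Merge

/-!
# S2187, classical rows: merging of `X` and `Y` when `b` has the same irreducible minimal polynomial on both
-/

set_option autoImplicit false
set_option linter.unusedSectionVars false

namespace Cfsg.Agent.H900.Gen

open Cfsg.Agent.H847.Bs QuadraticMap Cfsg.Agent.LieClassical.OrthCore Polynomial

variable {F V : Type*} [Field F] [AddCommGroup V] [Module F V] [Finite F] [FiniteDimensional F V]

/-- the restriction of `b` to an invariant subspace -/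
def rs (b : V ≃ₗ[F] V) {W : Submodule F V} (h : Inv b W) : Module.End F W := (b : V →ₗ[F] V).restrict h

theorem rs_apply (b : V ≃ₗ[F] V) {W : Submodule F V} (h : Inv b W) (w : W) : ((rs b h w : W) : V) = b w := rfl

theorem aeval_rs (b : V ≃ₗ[F] V) {W : Submodule F V} (h : Inv b W) (g : F[X]) (w : W) :
    ((aeval (rs b h) g w : W) : V) = aeval (b : V →ₗ[F] V) g w := by
  induction g using Polynomial.induction_on' with
  | add p q hp hq => rw [map_add, map_add, LinearMap.add_apply, LinearMap.add_apply, Submodule.coe_add, hp, hq]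
  | monomial n c =>
    rw [aeval_monomial, aeval_monomial, Module.End.mul_apply, Module.End.mul_apply, Module.algebraMap_end_apply,
      Module.algebraMap_end_apply, Submodule.coe_smul]
    congr 1
    induction n generalizing w with
    | zero => rfl
    | succ n ih =>
      rw [pow_succ, pow_succ, Module.End.mul_apply, Module.End.mul_apply, ih]
      rfl

/-- the ring homomorphism `F[T]/(f) → End W` -/
noncomputable def phi {W : Submodule F V} (β : Module.End F W) (f : F[X]) (h : aeval β f = 0) :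
    AdjoinRoot f →+* Module.End F W :=
  Ideal.Quotient.lift (Ideal.span {f}) (aeval β : F[X] →ₐ[F] Module.End F W).toRingHom (by
    intro g hg
    obtain ⟨c, rfl⟩ := Ideal.mem_span_singleton'.1 hg
    show aeval β (c * f) = 0
    rw [map_mul, h, mul_zero])

theorem phi_mk {W : Submodule F V} (β : Module.End F W) (f : F[X]) (h : aeval β f = 0) (g : F[X]) :
    phi β f h (AdjoinRoot.mk f g) = aeval β g := rfl

/-- merging of the vectors of nonzero norm -/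
def Mq (Φ : Frm F V) (N : Subgroup (V ≃ₗ[F] V)) (X Y : Submodule F V) : Prop :=
  ∀ x ∈ X, ∀ y ∈ Y, x ≠ 0 → (Φ.B (x + y) (x + y) ≠ 0 ∨ Φ.q (x + y) ≠ 0) →
    ∃ n ∈ N, Loc Φ (X ⊔ Y) n ∧ n (x + y) ∈ X

theorem mg_of' {Φ : Frm F V} {X Y : Submodule F V} (hΦ : Cl Φ) (hXn : Φ.NdOn X) (hYn : Φ.NdOn Y) (hXY : Φ.Orth X Y)
    {b : V ≃ₗ[F] V} (hb : b ∈ Φ.Iso) (hbX : Inv b X) (hbY : Inv b Y) {f : F[X]} (hf : Irreducible f)
    (hfX : ∀ x ∈ X, aeval (b : V →ₗ[F] V) f x = 0) (hfY : ∀ y ∈ Y, aeval (b : V →ₗ[F] V) f y = 0)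
    (hirr : ∀ Z ≤ X, Inv b Z → Z = ⊥ ∨ Z = X) (hX0 : X ≠ ⊥) (h2 : ∃ x ∈ X, b (b x) ≠ x)
    {N : Subgroup (V ≃ₗ[F] V)} (hN1 : Has1 Φ N X)
    (hN2 : ∀ g ∈ Φ.Iso, ∀ k ∈ Φ.Iso, g * b = b * g → k * b = b * k → Loc Φ (X ⊔ Y) g → Loc Φ (X ⊔ Y) k →
      g * k * g⁻¹ * k⁻¹ ∈ N) : (Big Φ X → Mg Φ N X Y) ∧ Mq Φ N X Y ∧
    ((∀ a, Φ.s a = a) → ∃ d : ℕ, Nat.card X = Nat.card F ^ (2 * d)) := by
  obtain ⟨H⟩ := hΦ.hf
  have hW : Inv b (X ⊔ Y) := by
    intro w hw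
    obtain ⟨x, hx, y, hy, rfl⟩ := Submodule.mem_sup.1 hw
    rw [map_add]
    exact Submodule.add_mem_sup (hbX x hx) (hbY y hy)
  have hf0 : aeval (rs b hW) f = 0 := by
    ext w
    rw [aeval_rs]
    obtain ⟨x, hx, y, hy, e⟩ := Submodule.mem_sup.1 w.2
    rw [← e, map_add, hfX x hx, hfY y hy, add_zero]
    rfl
  have hWn : Φ.NdOn (X ⊔ Y) := by
    intro w hw h
    obtain ⟨x, hx, y, hy, rfl⟩ := Submodule.mem_sup.1 hw
    have h1 : x = 0 := hXn x hx fun z hz => by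
      have h3 := h z (Submodule.mem_sup_left hz)
      rwa [Φ.add_left, (B_comm_zero Φ).1 (hXY z hz y hy), add_zero] at h3
    have h4 : y = 0 := hYn y hy fun z hz => by
      have h3 := h z (Submodule.mem_sup_right hz)
      rwa [Φ.add_left, hXY x hx z hz, zero_add] at h3
    rw [h1, h4, add_zero]
  have : Fact (Irreducible f) := ⟨hf⟩
  let _ : Module (AdjoinRoot f) ↥(X ⊔ Y) := Module.compHom _ (phi (rs b hW) f hf0)
  have hsm : ∀ (l : AdjoinRoot f) (w : ↥(X ⊔ Y)), l • w = phi (rs b hW) f hf0 l w := fun _ _ => rfl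
  have : IsScalarTower F (AdjoinRoot f) ↥(X ⊔ Y) := by
    constructor
    intro r l w
    rw [hsm, hsm]
    obtain ⟨g, rfl⟩ := AdjoinRoot.mk_surjective l
    have e1 : r • AdjoinRoot.mk f g = AdjoinRoot.mk f (r • g) := rfl
    rw [e1, phi_mk, phi_mk, map_smul]
    rfl
  have : Module.Finite F (AdjoinRoot f) := (AdjoinRoot.powerBasis hf.ne_zero).finite
  have : Finite (AdjoinRoot f) := Module.finite_of_finite F
  have hroot : ∀ w : ↥(X ⊔ Y), ((AdjoinRoot.root f • w : ↥(X ⊔ Y)) : V) = b w := by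
    intro w
    rw [hsm]
    have e1 : phi (rs b hW) f hf0 (AdjoinRoot.root f) = aeval (rs b hW) (Polynomial.X : F[X]) := phi_mk _ _ _ _
    rw [e1, aeval_X]
    rfl
  obtain ⟨x₂, hx₂, hx₂'⟩ := h2
  let D : Fld Φ (X ⊔ Y) b (AdjoinRoot f) :=
    { β := AdjoinRoot.root f
      hβ := hroot
      gen := AdjoinRoot.adjoinRoot_eq_top
      two := ⟨x₂, Submodule.mem_sup_left hx₂, hx₂'⟩
      nd := hWn
      iso := hb }
  obtain ⟨x, hx, hx0⟩ := (Submodule.ne_bot_iff _).1 hX0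
  let x₀ : ↥(X ⊔ Y) := ⟨x, Submodule.mem_sup_left hx⟩
  have hXinv : ∀ (l : AdjoinRoot f) (w : ↥(X ⊔ Y)), (w : V) ∈ X → ((l • w : ↥(X ⊔ Y)) : V) ∈ X := by
    intro l w hw
    obtain ⟨g, rfl⟩ := AdjoinRoot.mk_surjective l
    rw [hsm, phi_mk, aeval_rs, ← aeval_rs b hbX g ⟨w, hw⟩]
    exact Subtype.mem _
  have hLn : Fld.Ln (AdjoinRoot f) X x₀ := by
    intro z
    constructor
    · intro hz
      let Z : Submodule F V :=
        { carrier := {v | ∃ l : AdjoinRoot f, ((l • x₀ : ↥(X ⊔ Y)) : V) = v}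
          add_mem' := by
            rintro _ _ ⟨l, rfl⟩ ⟨m, rfl⟩
            exact ⟨l + m, by rw [add_smul, Submodule.coe_add]⟩
          zero_mem' := ⟨0, by rw [zero_smul]; rfl⟩
          smul_mem' := by
            rintro c _ ⟨l, rfl⟩
            exact ⟨c • l, by rw [smul_assoc, Submodule.coe_smul]⟩ }
      have hZX : Z ≤ X := by
        rintro _ ⟨l, rfl⟩
        exact hXinv l x₀ hx
      have hZi : Inv b Z := by
        rintro _ ⟨l, rfl⟩
        exact ⟨AdjoinRoot.root f * l, by rw [mul_smul, hroot]⟩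
      rcases hirr Z hZX hZi with h | h
      · exfalso
        have h1 : x ∈ Z := ⟨1, by rw [one_smul]⟩
        rw [h, Submodule.mem_bot] at h1
        exact hx0 h1
      · have hz' : (z : V) ∈ Z := h.symm ▸ hz
        obtain ⟨l, hl⟩ := hz'
        exact ⟨l, Subtype.ext hl.symm⟩
    · rintro ⟨l, rfl⟩
      exact hXinv l x₀ hx
  have hx₀ : x₀ ≠ 0 := fun h => hx0 (congrArg (fun w : ↥(X ⊔ Y) => (w : V)) h)
  exact ⟨fun hbig => D.merge H hbig rfl hXY hXn hLn hx₀ hN1 hN2, fun x hx y hy hx0 hq =>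
    D.merge_q H hΦ rfl hXY hXn hLn hx₀ hN1 hN2 hx hy hx0 hq, fun hs => by
      rw [← D.card_line le_sup_left hLn hx₀]
      exact D.card_even H hs⟩

theorem mg_of {Φ : Frm F V} {X Y : Submodule F V} (hbig : Big Φ X) (hXn : Φ.NdOn X) (hYn : Φ.NdOn Y) (hXY : Φ.Orth X Y)
    {b : V ≃ₗ[F] V} (hb : b ∈ Φ.Iso) (hbX : Inv b X) (hbY : Inv b Y) {f : F[X]} (hf : Irreducible f)
    (hfX : ∀ x ∈ X, aeval (b : V →ₗ[F] V) f x = 0) (hfY : ∀ y ∈ Y, aeval (b : V →ₗ[F] V) f y = 0)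
    (hirr : ∀ Z ≤ X, Inv b Z → Z = ⊥ ∨ Z = X) (hX0 : X ≠ ⊥) (h2 : ∃ x ∈ X, b (b x) ≠ x)
    {N : Subgroup (V ≃ₗ[F] V)} (hN1 : Has1 Φ N X)
    (hN2 : ∀ g ∈ Φ.Iso, ∀ k ∈ Φ.Iso, g * b = b * g → k * b = b * k → Loc Φ (X ⊔ Y) g → Loc Φ (X ⊔ Y) k →
      g * k * g⁻¹ * k⁻¹ ∈ N) : Mg Φ N X Y :=
  (mg_of' hbig.cl hXn hYn hXY hb hbX hbY hf hfX hfY hirr hX0 h2 hN1 hN2).1 hbig

end Cfsg.Agent.H900.Gen
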